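import Cfsg.Agent.Singer2.Order

/-!
A nonabelian configuration is the central extension of a binary quadratic form.
-/

set_option autoImplicit false

open scoped commutatorElement

namespace CfsgLib.Singer2

variable {Q : Type*} [Group Q] {α ρ : MulAut Q} {C : Subgroup Q} {n : ℕ}

theorem Sys.exists_hasForm [Finite Q] (h : Sys α ρ C n) (hna : ∃ a b : Q, a * b ≠ b * a) :
    ∃ (F : Type) (_ : Field F) (_ : Fintype F) (_ : CharP F 2) (t : F), Fintype.card F = 2 ^ n ∧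
      HasForm Q (Multiplicative (F × F)) (Multiplicative F) (fun m => Multiplicative.ofAdd
        (t * m.toAdd.1 * m.toAdd.1 + m.toAdd.1 * m.toAdd.2 + m.toAdd.2 * m.toAdd.2)) := by
  classical
  obtain ⟨hcard, hexp⟩ := h.cubic_or_comm.resolve_left fun hab =>
    hna.elim fun a ⟨b, hb⟩ => hb (hab a b)
  obtain ⟨F, iF, iFin, hchar, lam, a, b, κ, u, w, hF, hb, hκ, hu, hw, hdec, huniq, -, -, hbf, huu, hww,
    hsq⟩ := h.exists_data hexp hcard hna
  haveI := h.normal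
  have hcomm : ∀ g k : Q, ((g * k : Q) : Q ⧸ C) = ((k * g : Q) : Q ⧸ C) := fun g k => by
    refine QuotientGroup.eq.2 ?_
    have e : (g * k)⁻¹ * (k * g) = (k⁻¹ * g⁻¹ * (k⁻¹ * g⁻¹)) * (g * (k * k) * g⁻¹) * (g * g) := by group
    rw [e]
    exact mul_mem (mul_mem (hexp _) (h.normal.conj_mem _ (hexp _) _)) (hexp _)
  let ι : Multiplicative (F × F) →* Q ⧸ C := MonoidHom.mk'
    (fun m => ((u (m.toAdd.1 * m.toAdd.1) * w (m.toAdd.2 * m.toAdd.2) : Q) : Q ⧸ C)) (fun m m' => by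
      obtain ⟨k, hk, ek⟩ := hu.add (m.toAdd.1 * m.toAdd.1) (m'.toAdd.1 * m'.toAdd.1)
      obtain ⟨l, hl, el⟩ := hw.add (m.toAdd.2 * m.toAdd.2) (m'.toAdd.2 * m'.toAdd.2)
      have e1 : ∀ x y : F, (x + y) * (x + y) = x * x + y * y := fun x y => by
        linear_combination (x * y) * CharTwo.add_self_eq_zero (1 : F)
      rw [toAdd_mul, Prod.fst_add, Prod.snd_add, e1, e1, ek, el]
      simp only [QuotientGroup.mk_mul, (QuotientGroup.eq_one_iff k).2 hk,
        (QuotientGroup.eq_one_iff l).2 hl, mul_one]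
      simp only [mul_assoc]
      have := hcomm (u (m'.toAdd.1 * m'.toAdd.1)) (w (m.toAdd.2 * m.toAdd.2))
      rw [QuotientGroup.mk_mul, QuotientGroup.mk_mul] at this
      rw [← mul_assoc (u (m'.toAdd.1 * m'.toAdd.1) : Q ⧸ C), this, mul_assoc])
  have hbij : Function.Bijective ι := by
    refine ⟨(injective_iff_map_eq_one ι).2 fun m hm => ?_, fun v => ?_⟩
    · obtain ⟨h1, h2⟩ := huniq _ _ ((QuotientGroup.eq_one_iff _).1 hm)
      exact Multiplicative.toAdd.injective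
        (Prod.ext (mul_self_eq_zero.1 h1) (mul_self_eq_zero.1 h2))
    · obtain ⟨g, rfl⟩ := QuotientGroup.mk_surjective v
      obtain ⟨x, y, c, hc, rfl⟩ := hdec g
      obtain ⟨r, rfl⟩ := FiniteField.isSquare_of_char_two (ringChar.eq F 2) x
      obtain ⟨s, rfl⟩ := FiniteField.isSquare_of_char_two (ringChar.eq F 2) y
      refine ⟨Multiplicative.ofAdd (r, s), ?_⟩
      show ((u (r * r) * w (s * s) : Q) : Q ⧸ C) = _
      exact QuotientGroup.eq.2 (by rwa [inv_mul_cancel_left])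
  let e := MulEquiv.ofBijective ι hbij
  let κ' : Multiplicative F →* Q := MonoidHom.mk' (fun z => κ (z.toAdd * b))
    (fun x y => by rw [toAdd_mul, add_mul, hκ.add])
  refine ⟨F, iF, iFin, hchar, a / b, hF, e.symm.toMonoidHom.comp (QuotientGroup.mk' C), κ',
    e.symm.surjective.comp (QuotientGroup.mk'_surjective C), fun x y hxy => ?_, fun g => ?_,
    fun z g => ?_, fun g => ?_⟩
  · exact Multiplicative.toAdd.injective (mul_right_cancel₀ hb (hκ.inj hxy))
  · show e.symm (g : Q ⧸ C) = 1 ↔ _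
    rw [MulEquiv.map_eq_one_iff, QuotientGroup.eq_one_iff]
    constructor
    · intro hg
      obtain ⟨z, rfl⟩ := hκ.surj g hg
      exact ⟨Multiplicative.ofAdd (z / b), by show κ (z / b * b) = κ z; rw [div_mul_cancel₀ _ hb]⟩
    · rintro ⟨z, rfl⟩; exact hκ.mem _
  · exact ((h.commute (hκ.mem _) g).eq).symm
  · obtain ⟨m, hm⟩ : ∃ m, e.symm (g : Q ⧸ C) = m := ⟨_, rfl⟩
    show g * g = κ (((a / b) * (e.symm (g : Q ⧸ C)).toAdd.1 * (e.symm (g : Q ⧸ C)).toAdd.1 +
      (e.symm (g : Q ⧸ C)).toAdd.1 * (e.symm (g : Q ⧸ C)).toAdd.2 +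
      (e.symm (g : Q ⧸ C)).toAdd.2 * (e.symm (g : Q ⧸ C)).toAdd.2) * b)
    rw [hm]
    have hg : ι m = (g : Q ⧸ C) := by rw [← hm]; exact e.apply_symm_apply _
    obtain ⟨c, hc, rfl⟩ : ∃ c ∈ C, g = u (m.toAdd.1 * m.toAdd.1) * w (m.toAdd.2 * m.toAdd.2) * c :=
      ⟨_, QuotientGroup.eq.1 hg, (mul_inv_cancel_left _ _).symm⟩
    rw [(h.commute hc _).mul_mul_mul_comm, h.elem c hc, mul_one, hsq]
    congr 1
    field_simp

end CfsgLib.Singer2
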