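import Cfsg.Agent.Singer2.Extension
import Cfsg.Agent.UnitaryThree.Model
import Cfsg.Agent.Classical.Unitary.Center
import Cfsg.Agent.PSL34.Model
import Cfsg.Agent.Eq.Def_Classical

/-!
The Sylow 2-subgroups of `PSL(3, q)` and `PSU(3, q)`, `q` even, as central extensions with
squaring map a binary quadratic form.
-/

set_option autoImplicit false

namespace CfsgLib.Singer2

open Matrix

/-- The squaring map `t r² + r s + s²`. -/
def quad {F : Type*} [Field F] (t : F) (m : Multiplicative (F × F)) : Multiplicative F :=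
  Multiplicative.ofAdd (t * m.toAdd.1 * m.toAdd.1 + m.toAdd.1 * m.toAdd.2 + m.toAdd.2 * m.toAdd.2)

theorem exists_hasForm_linear {F : Type} [Field F] [Fintype F] [CharP F 2] {n : ℕ} (hn : 1 ≤ n)
    (hF : Fintype.card F = 2 ^ n) (k : F) :
    ∃ S : Sylow 2 (Matrix.ProjectiveSpecialLinearGroup (Fin 3) F),
      HasForm ↥(S : Subgroup (Matrix.ProjectiveSpecialLinearGroup (Fin 3) F))
        (Multiplicative (F × F)) (Multiplicative F) (quad (k * k + k)) := by
  classical
  haveI : Fact (Nat.Prime 2) := ⟨Nat.prime_two⟩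
  let PSL := Matrix.ProjectiveSpecialLinearGroup (Fin 3) F
  let pu : F → F → F → PSL := CfsgLib.PSL34.pu
  have pmul : ∀ a b c a' b' c', pu a b c * pu a' b' c' = pu (a + a') (b + b') (c + c' + a * b') :=
    CfsgLib.PSL34.pu_mul
  have pzero : pu 0 0 0 = 1 := CfsgLib.PSL34.pu_zero
  have h2 : ∀ a : F, a + a = 0 := fun a => CharTwo.add_self_eq_zero a
  let U : Subgroup PSL :=
    { carrier := {g | ∃ a b c, g = pu a b c}
      one_mem' := ⟨0, 0, 0, pzero.symm⟩
      mul_mem' := by
        rintro _ _ ⟨a, b, c, rfl⟩ ⟨a', b', c', rfl⟩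
        exact ⟨_, _, _, pmul a b c a' b' c'⟩
      inv_mem' := by
        rintro _ ⟨a, b, c, rfl⟩
        refine ⟨-a, -b, -c + a * b, inv_eq_of_mul_eq_one_right ?_⟩
        rw [pmul, ← pzero]
        congr 1 <;> ring }
  have pone : ∀ a b c, pu a b c = 1 → a = 0 ∧ b = 0 ∧ c = 0 := by
    intro a b c h
    have h' : CfsgLib.PSL34.uni a b c ∈ Subgroup.center (Matrix.SpecialLinearGroup (Fin 3) F) :=
      (QuotientGroup.eq_one_iff _).1 h
    obtain ⟨r, -, hr⟩ := Matrix.SpecialLinearGroup.mem_center_iff.1 h'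
    have e := fun i j => congrFun (congrFun hr i) j
    have e1 := e 0 1
    have e2 := e 1 2
    have e3 := e 0 2
    simp [CfsgLib.PSL34.uni] at e1 e2 e3
    exact ⟨e1.symm, e2.symm, e3.symm⟩
  have pinj : ∀ a b c a' b' c', pu a b c = pu a' b' c' → a = a' ∧ b = b' ∧ c = c' := by
    intro a b c a' b' c' h
    have e : pu a' b' c' * pu (a - a') (b - b') (c - c' - a' * (b - b')) = pu a b c := by
      rw [pmul]; congr 1 <;> ring
    obtain ⟨ha, hb, hc⟩ := pone _ _ _
      (mul_left_cancel (by rw [mul_one, e, h] : pu a' b' c' * _ = pu a' b' c' * 1))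
    refine ⟨sub_eq_zero.mp ha, sub_eq_zero.mp hb, ?_⟩
    rw [hb, mul_zero, sub_zero] at hc
    exact sub_eq_zero.mp hc
  let φ : F × F × F → ↥U := fun v => ⟨pu v.1 v.2.1 v.2.2, _, _, _, rfl⟩
  have hφ : Function.Bijective φ := by
    refine ⟨fun v v' e => ?_, fun g => ?_⟩
    · obtain ⟨e1, e2, e3⟩ := pinj _ _ _ _ _ _ (congrArg Subtype.val e :)
      exact Prod.ext e1 (Prod.ext e2 e3)
    · obtain ⟨a, b, c, e⟩ := g.2
      exact ⟨(a, b, c), Subtype.ext e.symm⟩
  have hcardU : Nat.card ↥U = (2 ^ n) ^ 3 := by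
    rw [← Nat.card_eq_of_bijective _ hφ, Nat.card_prod, Nat.card_prod,
      Nat.card_eq_fintype_card (α := F), hF]
    ring
  obtain ⟨Q, hQ⟩ := (IsPGroup.of_card (p := 2) (n := n * 3) (by rw [hcardU, ← pow_mul]) :
    IsPGroup 2 ↥U).exists_le_sylow
  have hQU : (Q : Subgroup PSL) = U := by
    refine (Subgroup.eq_of_le_of_card_ge hQ ?_).symm
    obtain ⟨m, hm⟩ := IsPGroup.iff_card.1 Q.isPGroup'
    rw [hcardU, hm]
    have hd : 2 ^ m ∣ Nat.card (GL (Fin 3) F) := by
      refine (hm ▸ Subgroup.card_subgroup_dvd_card _).trans (dvd_trans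
        (Subgroup.card_quotient_dvd_card (Subgroup.center (Matrix.SpecialLinearGroup (Fin 3) F))) ?_)
      exact Subgroup.card_dvd_of_injective _ Matrix.SpecialLinearGroup.toGL_injective
    rw [Matrix.card_GL_field, hF, Fin.prod_univ_three] at hd
    simp only [Fin.val_zero, Fin.val_one, Fin.val_two, pow_zero, pow_one] at hd
    set q := 2 ^ n with hq
    have hq2 : 2 ≤ q := by rw [hq]; exact Nat.le_self_pow (by omega) 2
    have hqe : Even q := by rw [hq]; exact Nat.even_pow.2 ⟨even_two, by omega⟩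
    have hodd : Nat.Coprime (2 ^ m) ((q ^ 3 - 1) * (q ^ 2 - 1) * (q - 1)) := by
      apply Nat.Coprime.pow_left
      rw [Nat.Prime.coprime_iff_not_dvd Nat.prime_two, ← even_iff_two_dvd]
      refine Nat.not_even_iff_odd.2 ((Odd.mul ?_ ?_).mul ?_)
      · exact Nat.Even.sub_odd (Nat.one_le_pow _ _ (by omega)) (hqe.pow_of_ne_zero (by omega)) odd_one
      · exact Nat.Even.sub_odd (Nat.one_le_pow _ _ (by omega)) (hqe.pow_of_ne_zero (by omega)) odd_one
      · exact Nat.Even.sub_odd (by omega) hqe odd_one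
    have heq : (q ^ 3 - 1) * (q ^ 3 - q) * (q ^ 3 - q ^ 2) =
        q ^ 3 * ((q ^ 3 - 1) * (q ^ 2 - 1) * (q - 1)) := by
      rw [show q ^ 3 - q = q * (q ^ 2 - 1) by rw [Nat.mul_sub, mul_one]; ring_nf,
        show q ^ 3 - q ^ 2 = q ^ 2 * (q - 1) by rw [Nat.mul_sub, mul_one]; ring_nf]
      ring
    rw [heq] at hd
    exact Nat.le_of_dvd (by positivity) (hodd.dvd_of_dvd_mul_right hd)
  refine ⟨Q, HasForm.of_mulEquiv ?_ (MulEquiv.subgroupCongr hQU.symm)⟩
  let ψ := Equiv.ofBijective φ hφ
  have hψ : ∀ g, φ (ψ.symm g) = g := ψ.apply_symm_apply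
  have hψφ : ∀ v, ψ.symm (φ v) = v := ψ.symm_apply_apply
  have hψmul : ∀ g h, ψ.symm (g * h) = ((ψ.symm g).1 + (ψ.symm h).1, (ψ.symm g).2.1 + (ψ.symm h).2.1,
      (ψ.symm g).2.2 + (ψ.symm h).2.2 + (ψ.symm g).1 * (ψ.symm h).2.1) := by
    intro g h
    rw [← hψφ ((ψ.symm g).1 + (ψ.symm h).1, (ψ.symm g).2.1 + (ψ.symm h).2.1,
      (ψ.symm g).2.2 + (ψ.symm h).2.2 + (ψ.symm g).1 * (ψ.symm h).2.1)]
    congr 1
    conv_lhs => rw [← hψ g, ← hψ h]
    exact Subtype.ext (pmul _ _ _ _ _ _)
  let L : F × F × F → F × F := fun v => (v.1 + v.2.1, v.1 + k * (v.1 + v.2.1))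
  let p : ↥U →* Multiplicative (F × F) := MonoidHom.mk' (fun g => Multiplicative.ofAdd (L (ψ.symm g)))
    (fun g h => by
      rw [← ofAdd_add, hψmul]
      congr 1
      simp only [L, Prod.mk_add_mk, Prod.mk.injEq]
      constructor <;> ring)
  let κ : Multiplicative F →* ↥U := MonoidHom.mk' (fun z => φ (0, 0, z.toAdd))
    (fun a b => Subtype.ext (by
      show pu 0 0 (a.toAdd + b.toAdd) = pu 0 0 a.toAdd * pu 0 0 b.toAdd
      rw [pmul]; simp))
  refine ⟨p, κ, fun m => ?_, fun a b e => ?_, fun g => ?_, fun z g => ?_, fun g => ?_⟩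
  · obtain ⟨⟨r, s⟩, rfl⟩ := Multiplicative.ofAdd.surjective m
    refine ⟨φ (s + k * r, r + s + k * r, 0), ?_⟩
    show Multiplicative.ofAdd (L (ψ.symm (φ _))) = _
    rw [hψφ]
    refine congrArg _ (Prod.ext ?_ ?_)
    · show s + k * r + (r + s + k * r) = r
      linear_combination h2 s + h2 (k * r)
    · show s + k * r + k * (s + k * r + (r + s + k * r)) = s
      linear_combination k * h2 s + k * h2 (k * r) + h2 (k * r)
  · obtain ⟨-, -, e3⟩ := pinj _ _ _ _ _ _ (congrArg Subtype.val e :)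
    exact e3
  · constructor
    · intro h
      have h' : L (ψ.symm g) = 0 := h
      simp only [L, Prod.mk_eq_zero] at h'
      obtain ⟨h1, h1'⟩ := h'
      rw [h1, mul_zero, add_zero] at h1'
      rw [h1', zero_add] at h1
      refine ⟨Multiplicative.ofAdd (ψ.symm g).2.2, ?_⟩
      conv_rhs => rw [← hψ g]
      show φ _ = φ _
      congr 1
      exact Prod.ext h1'.symm (Prod.ext h1.symm rfl)
    · rintro ⟨z, rfl⟩
      show Multiplicative.ofAdd (L (ψ.symm (φ _))) = 1
      rw [hψφ]; simp [L]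
  · apply ψ.symm.injective
    rw [hψmul, hψmul, show ψ.symm (κ z) = (0, 0, z.toAdd) from hψφ _]
    ext <;> simp <;> ring
  · apply ψ.symm.injective
    rw [hψmul, show ψ.symm (κ (quad (k * k + k) (p g))) = (0, 0, _) from hψφ _]
    refine Prod.ext (h2 _) (Prod.ext (h2 _) ?_)
    set a := (ψ.symm g).1
    set b := (ψ.symm g).2.1
    show (ψ.symm g).2.2 + (ψ.symm g).2.2 + a * b = (k * k + k) * (a + b) * (a + b) +
      (a + b) * (a + k * (a + b)) + (a + k * (a + b)) * (a + k * (a + b))
    linear_combination h2 (ψ.symm g).2.2 - (k * k + k) * h2 ((a + b) * (a + b)) - h2 (a * a) -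
      h2 (k * a * (a + b))

open CfsgLib.UnitaryThree in
theorem exists_hasForm_unitary {F : Type} [Field F] [Fintype F] [CharP F 2] {n : ℕ} (hn : 1 ≤ n)
    (hF : Fintype.card F = 2 ^ n) (t : F) (ht : ∀ k : F, k * k + k ≠ t) :
    ∃ (K : Type) (_ : Field K) (_ : Fintype K), Fintype.card K = 4 ^ n ∧
      ∃ S : Sylow 2 (Cfsg.PSU 3 K (2 ^ n)), HasForm ↥(S : Subgroup (Cfsg.PSU 3 K (2 ^ n)))
        (Multiplicative (F × F)) (Multiplicative F) (quad t) := by
  classical
  haveI : Fact (Nat.Prime 2) := ⟨Nat.prime_two⟩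
  have h2 : ∀ a : F, a + a = 0 := fun a => CharTwo.add_self_eq_zero a
  let P : Polynomial F := Polynomial.X ^ 2 + Polynomial.X + Polynomial.C t
  have hdeg : P.natDegree = 2 := by simp only [P]; compute_degree!
  have hmon : P.Monic := by simp only [P]; monicity!
  have hirr : Irreducible P := by
    rw [hmon.irreducible_iff_roots_eq_zero_of_degree_le_three (by omega) (by omega)]
    refine Multiset.eq_zero_of_forall_notMem fun r hr => ?_
    rw [Polynomial.mem_roots hmon.ne_zero] at hr
    simp only [P, Polynomial.IsRoot.def, Polynomial.eval_add, Polynomial.eval_pow,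
      Polynomial.eval_X, Polynomial.eval_C] at hr
    exact ht r (by linear_combination hr - h2 t)
  haveI : Fact (Irreducible P) := ⟨hirr⟩
  let K := AdjoinRoot P
  let θ : K := AdjoinRoot.root P
  let ι : F →+* K := AdjoinRoot.of P
  haveI : Module.Finite F K := (AdjoinRoot.powerBasis hmon.ne_zero).finite
  haveI : Finite K := Module.finite_of_finite F
  letI : Fintype K := Fintype.ofFinite K
  have hrank : Module.finrank F K = 2 := by
    rw [(AdjoinRoot.powerBasis hmon.ne_zero).finrank, AdjoinRoot.powerBasis_dim, hdeg]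
  have hK : Fintype.card K = 4 ^ n := by
    rw [Module.card_eq_pow_finrank (K := F) (V := K), hrank, hF,
      show (4 : ℕ) = 2 ^ 2 from rfl, ← pow_mul, ← pow_mul, mul_comm]
  haveI : CharP K 2 := charP_of_injective_ringHom ι.injective 2
  have h2K : ∀ a : K, a + a = 0 := fun a => CharTwo.add_self_eq_zero a
  have hθ : θ * θ + θ = ι t := by
    have h := AdjoinRoot.eval₂_root P
    simp only [P, Polynomial.eval₂_add, Polynomial.eval₂_pow, Polynomial.eval₂_X,
      Polynomial.eval₂_C] at h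
    linear_combination h - h2K (ι t)
  have hθF : ∀ x, ι x ≠ θ := fun x hx => ht x (ι.injective (by rw [map_add, map_mul, hx, hθ]))
  set q := 2 ^ n with hq
  have hιq : ∀ x : F, ι x ^ q = ι x := fun x => by
    rw [← map_pow, ← hF, FiniteField.pow_card]
  have hadd : ∀ x y : K, (x + y) ^ q = x ^ q + y ^ q := fun x y => add_pow_char_pow x y 2 n
  have hbij : Function.Bijective (fun v : F × F => ι v.2 + ι v.1 * θ) := by
    refine (Fintype.bijective_iff_injective_and_card _).2 ⟨?_, ?_⟩
    · rintro ⟨r, s⟩ ⟨r', s'⟩ e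
      simp only at e
      have hr : r = r' := by
        by_contra hne
        have hd : ι (r - r') ≠ 0 := fun h => hne (sub_eq_zero.1 (ι.injective (h.trans (map_zero ι).symm)))
        refine hθF ((s' - s) / (r - r')) ?_
        rw [map_div₀, div_eq_iff hd, map_sub, map_sub]
        linear_combination -e
      subst hr
      simp only [add_left_inj] at e
      exact Prod.ext rfl (ι.injective e)
    · rw [Fintype.card_prod, hF, hK, show (4 : ℕ) = 2 ^ 2 from rfl, ← pow_mul, ← pow_add]
      congr 1; omega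
  let co := Equiv.ofBijective _ hbij
  have hθq : θ ^ q = θ + 1 := by
    have h1 : θ ^ q * θ ^ q + θ ^ q = θ * θ + θ := by
      rw [hθ, ← mul_pow, ← hadd, hθ, hιq]
    have h3 : θ ^ q ≠ θ := by
      intro hfix
      have hall : ∀ z : K, z ^ q = z := fun z => by
        obtain ⟨⟨r, s⟩, rfl⟩ := hbij.2 z
        show (ι s + ι r * θ) ^ q = _
        rw [hadd, mul_pow, hιq, hιq, hfix]
      have hle : Nat.card K - 1 ∣ q - 1 := by
        rw [Nat.card_eq_fintype_card]
        refine (FiniteField.forall_pow_eq_one_iff K (q - 1)).1 fun u => Units.ext ?_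
        have h := hall u
        rw [show q = q - 1 + 1 from (Nat.sub_add_cancel (Nat.one_le_two_pow (n := n))).symm, pow_succ] at h
        rw [Units.val_pow_eq_pow_val, Units.val_one]
        exact mul_right_cancel₀ u.ne_zero (h.trans (one_mul _).symm)
      rw [Nat.card_eq_fintype_card, hK] at hle
      have hlt : q < 4 ^ n := by
        rw [hq]; exact Nat.pow_lt_pow_left (by norm_num) (by omega)
      have h1q : 2 ≤ q := by rw [hq]; exact Nat.le_self_pow (by omega) 2
      have := Nat.le_of_dvd (by omega) hle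
      omega
    have h4 : (θ ^ q + θ) * (θ ^ q + θ + 1) = 0 := by
      linear_combination h1 + θ * h2K (θ ^ q) + h2K (θ * θ) + h2K θ
    rcases mul_eq_zero.1 h4 with h | h
    · exact absurd (by linear_combination h - h2K θ) h3
    · linear_combination h - h2K θ - h2K 1
  have d : Data K q := Data.ofCard hn hK
  obtain ⟨S₀, hS₀⟩ := exists_sylow_eq_uni n hn d
  refine ⟨K, inferInstance, inferInstance, hK, ?_⟩
  let π := QuotientGroup.mk' (Subgroup.center ↥(Cfsg.SU 3 K q))
  let S' : Sylow 2 (Cfsg.PSU 3 K q) := S₀.mapSurjective (f := π) (QuotientGroup.mk'_surjective _)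
  refine ⟨S', ?_⟩
  have hcop : Nat.Coprime (Nat.card ↥(uni d)) (Nat.card (Subgroup.center ↥(Cfsg.SU 3 K q))) := by
    rw [card_uni, CfsgLib.Unitary.card_center_SU d.card (by omega), hq, ← pow_mul]
    refine Nat.Coprime.pow_left _ (Nat.Coprime.coprime_dvd_right (Nat.gcd_dvd_left _ _) ?_)
    norm_num
  have hinj : Function.Injective (π.comp (uni d).subtype) := by
    refine (injective_iff_map_eq_one _).2 fun g hg => Subtype.ext ?_
    have hmem : (g : ↥(Cfsg.SU 3 K q)) ∈ uni d ⊓ Subgroup.center _ :=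
      ⟨g.2, (QuotientGroup.eq_one_iff _).1 hg⟩
    rw [Subgroup.inf_eq_bot_of_coprime hcop, Subgroup.mem_bot] at hmem
    exact hmem
  refine HasForm.of_mulEquiv (Q := ↥(uni d)) ?_ ((MonoidHom.ofInjective hinj).trans
    (MulEquiv.subgroupCongr ?_))
  swap
  · rw [MonoidHom.range_comp, Subgroup.range_subtype]
    show _ = (S₀ : Subgroup _).map π
    rw [hS₀]
  -- the coordinates
  let p : ↥(uni d) →* Multiplicative (F × F) := MonoidHom.mk'
    (fun g => Multiplicative.ofAdd (co.symm (coA g))) (fun g h => by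
      rw [← ofAdd_add, coA_mul]
      congr 1
      apply co.injective
      rw [co.apply_symm_apply]
      conv_lhs => rw [← co.apply_symm_apply (coA g), ← co.apply_symm_apply (coA h)]
      show ι _ + ι _ * θ + (ι _ + ι _ * θ) = ι (_ + _) + ι (_ + _) * θ
      rw [map_add, map_add]; ring)
  let κ : Multiplicative F →* ↥(uni d) := MonoidHom.mk'
    (fun z => el d 0 (ι z.toAdd) (cond_zero (hιq _) d))
    (fun a b => uni_ext (by simp [coA_mul]) (by simp [coB_mul, d.q_pos.ne']))
  have hA : ∀ g, coA g = ι (p g).toAdd.2 + ι (p g).toAdd.1 * θ := fun g =>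
    (co.apply_symm_apply (coA g)).symm
  refine ⟨p, κ, fun m => ?_, fun a b e => ?_, fun g => ?_, fun z g => ?_, fun g => ?_⟩
  · obtain ⟨g, hg⟩ := exists_coA d (co m.toAdd)
    exact ⟨g, by show Multiplicative.ofAdd (co.symm (coA g)) = m; rw [hg, co.symm_apply_apply]; rfl⟩
  · exact Multiplicative.toAdd.injective (ι.injective (congrArg coB e))
  · have hp1 : p g = 1 ↔ coA g = 0 := by
      constructor
      · intro h; rw [hA, h]; simp
      · intro h
        show co.symm (coA g) = 0
        rw [h]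
        apply co.injective
        rw [co.apply_symm_apply]
        show (0 : K) = ι 0 + ι 0 * θ
        simp
    rw [hp1]
    constructor
    · intro h
      have hfix := fixed_coB h
      obtain ⟨⟨r, s⟩, hrs⟩ := hbij.2 (coB g)
      simp only at hrs
      rw [← hrs, hadd, mul_pow, hιq, hιq, hθq] at hfix
      have hr : r = 0 := ι.injective (by rw [map_zero]; linear_combination hfix)
      refine ⟨Multiplicative.ofAdd s, uni_ext h.symm ?_⟩
      show ι s = coB g
      rw [← hrs, hr, map_zero, zero_mul, add_zero]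
    · rintro ⟨z, rfl⟩; rfl
  · exact uni_ext (by simp [coA_mul, κ, add_comm]) (by simp [coB_mul, κ, d.q_pos.ne', add_comm])
  · refine uni_ext (sq_eq g).1 ((sq_eq g).2.trans ?_)
    show coA g ^ (q + 1) = ι (t * _ * _ + _ * _ + _ * _)
    rw [pow_succ, hA g, hadd, mul_pow, hιq, hιq, hθq]
    set r := (p g).toAdd.1
    set s := (p g).toAdd.2
    rw [map_add, map_add, map_mul, map_mul, map_mul, map_mul, ← hθ]
    linear_combination h2K (ι s * ι r * θ)

end CfsgLib.Singer2
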