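import Cfsg.Agent.Singer2.Structure

/-!
Classification: a nonabelian configuration has order `q³` and is determined by a binary quadratic
form over the field with `q` elements.
-/

set_option autoImplicit false
set_option maxHeartbeats 800000

open scoped commutatorElement

namespace CfsgLib.Singer2

universe u

variable {Q : Type u} [Group Q]

theorem comm_left {a b d : Q} (h : ⁅b, d⁆ ∈ Subgroup.center Q) : ⁅a * b, d⁆ = ⁅a, d⁆ * ⁅b, d⁆ := by
  rw [show ⁅a * b, d⁆ = (a * ⁅b, d⁆ * a⁻¹) * ⁅a, d⁆ by simp [commutatorElement_def, mul_assoc],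
    Subgroup.mem_center_iff.1 h a, mul_inv_cancel_right, ← Subgroup.mem_center_iff.1 h]

theorem comm_right {a b d : Q} (h : ⁅a, d⁆ ∈ Subgroup.center Q) : ⁅a, b * d⁆ = ⁅a, b⁆ * ⁅a, d⁆ := by
  rw [show ⁅a, b * d⁆ = ⁅a, b⁆ * (b * ⁅a, d⁆ * b⁻¹) by simp [commutatorElement_def, mul_assoc],
    Subgroup.mem_center_iff.1 h b, mul_inv_cancel_right]

theorem comm_congr_left {a k d : Q} (h : Commute k d) : ⁅a * k, d⁆ = ⁅a, d⁆ := by
  rw [show ⁅a * k, d⁆ = (a * ⁅k, d⁆ * a⁻¹) * ⁅a, d⁆ by simp [commutatorElement_def, mul_assoc],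
    commutatorElement_eq_one_iff_mul_comm.2 h.eq, mul_one, mul_inv_cancel, one_mul]

theorem comm_congr_right {a k d : Q} (h : Commute k a) : ⁅a, d * k⁆ = ⁅a, d⁆ := by
  rw [show ⁅a, d * k⁆ = ⁅a, d⁆ * (d * ⁅a, k⁆ * d⁻¹) by simp [commutatorElement_def, mul_assoc],
    commutatorElement_eq_one_iff_mul_comm.2 h.symm.eq, mul_one, mul_inv_cancel, mul_one]

/-- `⁅e, ⁅e', f⁆⁆ = ⁅e', ⁅e, f⁆⁆` when `e` and `e'` commute modulo the centre. -/
theorem comm_swap {e e' f : Q} (hz : ⁅e, e'⁆ ∈ Subgroup.center Q) (hcc : Commute ⁅e, f⁆ ⁅e', f⁆) :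
    ⁅e, ⁅e', f⁆⁆ = ⁅e', ⁅e, f⁆⁆ := by
  have h1 : e * e' = ⁅e, e'⁆ * (e' * e) := by simp [commutatorElement_def, mul_assoc]
  have h2 : e * (e' * f * e'⁻¹) * e⁻¹ = e' * (e * f * e⁻¹) * e'⁻¹ := by
    calc e * (e' * f * e'⁻¹) * e⁻¹ = (e * e') * f * (e * e')⁻¹ := by group
      _ = ⁅e, e'⁆ * ((e' * e) * f * (e' * e)⁻¹) * ⁅e, e'⁆⁻¹ := by rw [h1]; group
      _ = (e' * e) * f * (e' * e)⁻¹ := by
          rw [← Subgroup.mem_center_iff.1 hz, mul_inv_cancel_right]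
      _ = _ := by group
  have l : e * (e' * f * e'⁻¹) * e⁻¹ = ⁅e, ⁅e', f⁆⁆ * (⁅e', f⁆ * ⁅e, f⁆) * f := by
    simp [commutatorElement_def, mul_assoc]
  have r : e' * (e * f * e⁻¹) * e'⁻¹ = ⁅e', ⁅e, f⁆⁆ * (⁅e, f⁆ * ⁅e', f⁆) * f := by
    simp [commutatorElement_def, mul_assoc]
  rw [l, r, hcc.eq] at h2
  exact mul_right_cancel (mul_right_cancel h2)

section Coords

variable {F : Type} [Field F]

/-- `κ` identifies the field with `C`, multiplication by `lam` becoming `ρ`. -/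
structure IsCoord (ρ : MulAut Q) (C : Subgroup Q) (lam : F) (κ : F → Q) : Prop where
  add : ∀ x y, κ (x + y) = κ x * κ y
  inj : Function.Injective κ
  mem : ∀ x, κ x ∈ C
  surj : ∀ c ∈ C, ∃ x, κ x = c
  equiv : ∀ x, κ (lam * x) = ρ (κ x)
  gen : ∀ x : F, x ≠ 0 → ∃ k : ℕ, lam ^ k = x

/-- An additive-up-to-`K`, equivariant-up-to-`K` family. -/
structure IsLift (ρ : MulAut Q) (lam : F) (K : Subgroup Q) (u : F → Q) : Prop where
  add : ∀ x y, ∃ k ∈ K, u (x + y) = u x * u y * k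
  equiv : ∀ x, ∃ k ∈ K, u (lam * x) = ρ (u x) * k

variable {α ρ : MulAut Q} {C : Subgroup Q} {n : ℕ} {lam : F} {κ : F → Q}

theorem IsCoord.map_zero (hκ : IsCoord ρ C lam κ) : κ 0 = 1 := by
  have h := hκ.add 0 0
  rw [add_zero] at h
  exact mul_eq_left.1 h.symm

theorem IsCoord.scalar (hκ : IsCoord ρ C lam κ) (g : F → F) (h0 : g 0 = 0)
    (hg : ∀ x, g (lam * x) = lam * g x) (c : F) : g c = c * g 1 := by
  rcases eq_or_ne c 0 with rfl | hc
  · rw [h0, zero_mul]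
  obtain ⟨k, rfl⟩ := hκ.gen c hc
  clear hc
  induction k with
  | zero => rw [pow_zero, one_mul]
  | succ k ih => rw [pow_succ', hg, ih, mul_assoc]

/-- Commutators between two lifts. -/
theorem pairing [CharP F 2] [Finite Q] (h : Sys α ρ C n) (hκ : IsCoord ρ C lam κ)
    {K L : Subgroup Q} {u w : F → Q} (hu : IsLift ρ lam K u) (hw : IsLift ρ lam L w)
    (hK : ∀ k ∈ K, ∀ y, Commute k (w y)) (hL : ∀ l ∈ L, ∀ x, Commute l (u x) ∧ Commute l (ρ (u x)))
    (hC : ∀ x y, ⁅u x, w y⁆ ∈ C) :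
    ∃ b : F, (∀ r s, ⁅u (r * r), w (s * s)⁆ = κ (r * s * b)) ∧ ⁅u 1, w 1⁆ = κ b := by
  choose β hβ using fun x y => hκ.surj _ (hC x y)
  have hcen : ∀ x y, ⁅u x, w y⁆ ∈ Subgroup.center Q := fun x y => h.le_center (hC x y)
  have hl : ∀ x y z, β (x + y) z = β x z + β y z := fun x y z => hκ.inj (by
    obtain ⟨k, hk, e⟩ := hu.add x y
    rw [hκ.add, hβ, hβ, hβ, e, comm_congr_left (hK k hk z), comm_left (hcen y z)])
  have hr : ∀ x y z, β x (y + z) = β x y + β x z := fun x y z => hκ.inj (by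
    obtain ⟨l, hl', e⟩ := hw.add y z
    rw [hκ.add, hβ, hβ, hβ, e, comm_congr_right (hL l hl' x).1, comm_right (hcen x z)])
  have heq : ∀ x y, β (lam * x) (lam * y) = lam * β x y := fun x y => hκ.inj (by
    obtain ⟨k, hk, ek⟩ := hu.equiv x
    obtain ⟨l, hl', el⟩ := hw.equiv y
    rw [hκ.equiv, hβ, hβ, ek, comm_congr_left (hK k hk _), el, comm_congr_right (hL l hl' x).2,
      map_commutatorElement])
  have h0 : β 0 0 = 0 := by
    have := hl 0 0 0
    rwa [add_zero, CharTwo.add_self_eq_zero] at this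
  have hc : ∀ c x y, β (c * x) (c * y) = c * β x y := fun c x y => by
    rw [hκ.scalar (fun c => β (c * x) (c * y)) (by rw [zero_mul, zero_mul, h0])
      (fun c => by rw [mul_assoc, mul_assoc, heq]) c, one_mul, one_mul]
  exact ⟨β 1 1, fun r s => by rw [← bilin_sq β hl hr hc r s, hβ], (hβ 1 1).symm⟩

/-- A lift commutes with itself. -/
theorem pairing_self [Fintype F] [CharP F 2] [Finite Q] (h : Sys α ρ C n) (hκ : IsCoord ρ C lam κ)
    {K : Subgroup Q} {u : F → Q} (hu : IsLift ρ lam K u)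
    (hK : ∀ k ∈ K, ∀ x, Commute k (u x) ∧ Commute k (ρ (u x)))
    (hC : ∀ x y, ⁅u x, u y⁆ ∈ C) (x y : F) : Commute (u x) (u y) := by
  obtain ⟨b, hb, hb1⟩ := pairing h hκ hu hu (fun k hk z => (hK k hk z).1) hK hC
  have hb0 : b = 0 := by
    refine hκ.inj ?_
    rw [← hb1, commutatorElement_self, hκ.map_zero]
  obtain ⟨r, rfl⟩ := (FiniteField.isSquare_of_char_two (ringChar.eq F 2) x)
  obtain ⟨s, rfl⟩ := (FiniteField.isSquare_of_char_two (ringChar.eq F 2) y)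
  refine commutatorElement_eq_one_iff_mul_comm.1 ?_
  rw [hb, hb0, mul_zero, hκ.map_zero]

/-- Squares along a lift. -/
theorem square_lift [Finite Q] (h : Sys α ρ C n) (hκ : IsCoord ρ C lam κ) {u : F → Q}
    (hu : IsLift ρ lam C u) (hsq : ∀ x, u x * u x ∈ C) (x : F) :
    ∃ a : F, u 1 * u 1 = κ a ∧ u x * u x = κ (x * a) := by
  choose s hs using fun x => hκ.surj _ (hsq x)
  have hmul : ∀ g, ∀ c ∈ C, g * c * (g * c) = g * g := fun g c hc => by
    rw [(h.commute hc g).mul_mul_mul_comm, h.elem c hc, mul_one]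
  have h0 : s 0 = 0 := by
    refine hκ.inj ?_
    obtain ⟨k, hk, e⟩ := hu.add 0 0
    rw [add_zero, mul_assoc, left_eq_mul] at e
    rw [hs, hκ.map_zero, eq_inv_of_mul_eq_one_left e, ← mul_inv_rev, h.elem k hk, inv_one]
  have hl : ∀ x, s (lam * x) = lam * s x := fun x => hκ.inj (by
    obtain ⟨k, hk, e⟩ := hu.equiv x
    rw [hκ.equiv, hs, hs, e, hmul _ k hk, map_mul])
  exact ⟨s 1, (hs 1).symm, by rw [← hs, hκ.scalar s h0 hl x]⟩

end Coords

section Main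

variable {α ρ : MulAut Q} {C : Subgroup Q} {n : ℕ}

/-- Coordinates on `C` and lifts of a basis when `Q ⧸ C` has exponent two and order `q²`. -/
theorem Sys.exists_basis [Finite Q] (h : Sys α ρ C n) (hexp : ∀ x : Q, x * x ∈ C)
    (hcard : Nat.card Q = (2 ^ n) ^ 3) :
    ∃ (F : Type) (_ : Field F) (_ : Fintype F) (_ : CharP F 2) (lam : F) (κ u w : F → Q),
      Fintype.card F = 2 ^ n ∧ IsCoord ρ C lam κ ∧ IsLift ρ lam C u ∧ IsLift ρ lam C w ∧
      (∀ g, ∃ x y, ∃ c ∈ C, g = u x * w y * c) ∧ (∀ x y, u x * w y ∈ C → x = 0 ∧ y = 0) ∧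
      (∀ x, ∃ c ∈ C, α (u x) = u x * w x * c) ∧ ∀ x, α (w x) = w x * κ x := by
  classical
  haveI := h.normal
  have hq : 2 ≤ 2 ^ n := Nat.le_self_pow (by have := h.two_le; omega) 2
  have hne : C ≠ ⊤ := fun e => by
    have h1 := h.card
    rw [e, Subgroup.card_top, hcard] at h1
    nlinarith [Nat.mul_le_mul hq hq, pow_succ (2 ^ n) 2, sq (2 ^ n)]
  obtain ⟨α', ρ', A, d, hA, mka, mkr, dinj, dC, dsurj, hd, dρ⟩ := h.quotient hne
  have hV2 : ∀ v : Q ⧸ C, v * v = 1 := fun v => by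
    obtain ⟨g, rfl⟩ := QuotientGroup.mk_surjective v
    exact (QuotientGroup.eq_one_iff (g * g)).2 (hexp g)
  letI : CommGroup (Q ⧸ C) := { (inferInstance : Group (Q ⧸ C)) with
    mul_comm := fun a b => by
      calc a * b = a * (a * b * (a * b)) * b := by rw [hV2, mul_one]
        _ = (a * a) * (b * a) * (b * b) := by group
        _ = b * a := by rw [hV2, hV2, one_mul, mul_one] }
  letI : CommGroup ↥C := { (inferInstance : Group ↥C) with
    mul_comm := fun a b => Subtype.ext ((h.commute a.2 (b : Q)).eq) }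
  have hδ : ∀ v, v⁻¹ * α' v ∈ A := fun v => by
    rw [hA.fixed, map_mul, map_inv, hA.invol, inv_eq_of_mul_eq_one_right (hV2 v),
      inv_eq_of_mul_eq_one_right (hV2 _), mul_comm]
  let π : (Q ⧸ C) →* ↥C := MonoidHom.mk' (fun v => ⟨d ⟨v⁻¹ * α' v, hδ v⟩, dC _⟩) (fun v v' =>
    Subtype.ext (by
      have e : (⟨(v * v')⁻¹ * α' (v * v'), hδ (v * v')⟩ : ↥A) = ⟨_, hδ v⟩ * ⟨_, hδ v'⟩ :=
        Subtype.ext (by
          show (v * v')⁻¹ * α' (v * v') = v⁻¹ * α' v * (v'⁻¹ * α' v')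
          rw [map_mul, mul_inv_rev, mul_comm v'⁻¹, mul_mul_mul_comm])
      show d ⟨_, hδ (v * v')⟩ = d ⟨_, hδ v⟩ * d ⟨_, hδ v'⟩
      rw [e, map_mul]))
  have hπ0 : ∀ v, π v = 1 ↔ v ∈ A := fun v => by
    rw [hA.fixed]
    constructor
    · intro e
      exact (inv_mul_eq_one.1 (congrArg Subtype.val (dinj ((congrArg Subtype.val e).trans (map_one d).symm)))).symm
    · intro e
      refine Subtype.ext ?_
      show d ⟨_, hδ v⟩ = 1
      rw [show (⟨v⁻¹ * α' v, hδ v⟩ : ↥A) = 1 from Subtype.ext (by simp [e]), map_one]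
  choose j₀ hj₀ using fun c : ↥C => dsurj c c.2
  let j : ↥C →* Q ⧸ C := MonoidHom.mk' (fun c => (j₀ c : Q ⧸ C)) (fun c c' => by
    rw [← Subgroup.coe_mul]
    exact congrArg _ (dinj (by rw [map_mul, hj₀, hj₀, hj₀, Subgroup.coe_mul])))
  let lC : MulAut ↥C :=
    { toFun := fun c => ⟨ρ c, h.rho_mem c.2⟩
      invFun := fun c => ⟨(ρ^[2 ^ n - 2]) c, by
        obtain ⟨c, hc⟩ := c
        generalize 2 ^ n - 2 = k
        induction k with
        | zero => exact hc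
        | succ k ih => rw [Function.iterate_succ_apply']; exact h.rho_mem ih⟩
      left_inv := fun c => Subtype.ext (by
        show (ρ^[2 ^ n - 2]) (ρ c) = c
        rw [← Function.iterate_succ_apply, show Nat.succ (2 ^ n - 2) = 2 ^ n - 1 by omega, h.order])
      right_inv := fun c => Subtype.ext (by
        show ρ ((ρ^[2 ^ n - 2]) c) = c
        rw [← Function.iterate_succ_apply' ρ, show Nat.succ (2 ^ n - 2) = 2 ^ n - 1 by omega, h.order])
      map_mul' := fun a b => Subtype.ext (map_mul ρ (a : Q) b) }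
  have hlC : ∀ k c, (((lC.toAdditive : Additive ↥C ≃+ Additive ↥C)^[k]) c).toMul.1 = (ρ^[k]) c.toMul.1 := by
    intro k c
    induction k with
    | zero => rfl
    | succ k ih => rw [Function.iterate_succ_apply', Function.iterate_succ_apply', ← ih]; rfl
  have hρ' : ∀ k v, (((MulEquiv.toAdditive ρ' : Additive (Q ⧸ C) ≃+ Additive (Q ⧸ C)))^[k]) v =
      Additive.ofMul ((ρ'^[k]) v.toMul) := by
    intro k v
    induction k with
    | zero => rfl
    | succ k ih => rw [Function.iterate_succ_apply', Function.iterate_succ_apply', ih]; rfl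
  obtain ⟨e, he⟩ : ∃ e, π e ≠ 1 := by
    by_contra hcon
    push Not at hcon
    have hle : Nat.card (Q ⧸ C) ≤ 2 ^ n := by
      rw [← hA.card]
      exact Nat.card_le_card_of_injective (fun v => (⟨v, (hπ0 v).1 (hcon v)⟩ : ↥A))
        (fun a b e => congrArg Subtype.val e :)
    have := Subgroup.card_eq_card_quotient_mul_card_subgroup C
    rw [hcard, h.card] at this
    nlinarith [Nat.mul_le_mul hle (le_refl (2 ^ n)), Nat.mul_le_mul hq hq]
  obtain ⟨F, iF, iFin, lam, κ₀, σ, hFcard, hchar, hgen, hκl, hσl, hπσ⟩ :=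
    exists_scalars (C := Additive ↥C) (V := Additive (Q ⧸ C))
      (fun c => Subtype.ext (h.elem _ c.toMul.2)) (fun v => hV2 v.toMul) (2 ^ n) ⟨n, rfl, hq⟩ h.card
      lC.toAdditive
      (fun x y hx hy => by
        obtain ⟨k, hk⟩ := h.trans x.toMul.1 x.toMul.2 y.toMul.1 y.toMul.2
          (fun e => hx (Subtype.ext e)) (fun e => hy (Subtype.ext e))
        exact ⟨k, Subtype.ext ((hlC k x).trans hk)⟩)
      (fun c => Subtype.ext ((hlC _ c).trans (h.order _)))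
      (MulEquiv.toAdditive ρ') (fun v => by rw [hρ', hA.order]; rfl)
      (MonoidHom.toAdditive π)
      (fun v => Subtype.ext (by
        show d ⟨_, hδ (ρ' v.toMul)⟩ = ρ (d ⟨_, hδ v.toMul⟩)
        have hm : ρ' (v.toMul⁻¹ * α' v.toMul) ∈ A := hA.rho_mem (hδ _)
        rw [← dρ ⟨_, hδ v.toMul⟩ hm]
        congr 1
        exact Subtype.ext (show (ρ' v.toMul)⁻¹ * α' (ρ' v.toMul) = ρ' (v.toMul⁻¹ * α' v.toMul) by
          rw [map_mul, map_inv, hA.comm])))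
      (MonoidHom.toAdditive j)
      (fun c => by
        show (j₀ (lC c.toMul) : Q ⧸ C) = ρ' (j₀ c.toMul : Q ⧸ C)
        refine congrArg Subtype.val (dinj (a₂ := ⟨_, hA.rho_mem (j₀ c.toMul).2⟩) ?_)
        rw [dρ, hj₀, hj₀]; rfl)
      (fun v hv => by
        have hvA : v.toMul ∈ A := (hπ0 _).1 hv
        refine ⟨Additive.ofMul ⟨d ⟨_, hvA⟩, dC _⟩, ?_⟩
        show (j₀ _ : Q ⧸ C) = v.toMul
        exact congrArg Subtype.val (dinj (a₂ := ⟨_, hvA⟩) (hj₀ _)))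
      (Additive.ofMul e) he
  let κ : F → Q := fun x => ((κ₀ x).toMul : ↥C)
  let u : F → Q := fun x => (σ x).toMul.out
  let w : F → Q := fun x => (j (κ₀ x).toMul).out
  have mku : ∀ x, (u x : Q ⧸ C) = (σ x).toMul := fun x => QuotientGroup.out_eq' _
  have mkw : ∀ x, (w x : Q ⧸ C) = j (κ₀ x).toMul := fun x => QuotientGroup.out_eq' _
  have liftmk : ∀ {a b : Q}, (a : Q ⧸ C) = (b : Q ⧸ C) → ∃ c ∈ C, b = a * c := fun {a b} e =>
    ⟨a⁻¹ * b, QuotientGroup.eq.1 e, (mul_inv_cancel_left _ _).symm⟩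
  have hπu : ∀ x, π (σ x).toMul = (κ₀ x).toMul := fun x => hπσ x
  have hwA : ∀ x, (w x : Q ⧸ C) ∈ A := fun x => by rw [mkw]; exact (j₀ _).2
  refine ⟨F, iF, iFin, hchar, lam, κ, u, w, hFcard,
    ⟨fun x y => by simp [κ, map_add], fun x y e => κ₀.injective (Subtype.ext e), fun x => (κ₀ x).toMul.2,
      fun c hc => ⟨κ₀.symm (Additive.ofMul ⟨c, hc⟩), by simp [κ]⟩,
      fun x => congrArg (fun z : Additive ↥C => ((z.toMul : ↥C) : Q)) (hκl x), hgen⟩,
    ⟨fun x y => liftmk ?_, fun x => liftmk ?_⟩, ⟨fun x y => liftmk ?_, fun x => liftmk ?_⟩,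
    fun g => ?_, fun x y hxy => ?_, fun x => liftmk ?_, fun x => ?_⟩
  · rw [QuotientGroup.mk_mul, mku, mku, mku, map_add]; rfl
  · rw [← mkr, mku, mku, hσl]; rfl
  · rw [QuotientGroup.mk_mul, mkw, mkw, mkw, map_add, ← map_mul]; rfl
  · rw [← mkr, mkw, mkw, hκl]
    refine congrArg Subtype.val (dinj (a₁ := ⟨_, hA.rho_mem (j₀ (κ₀ x).toMul).2⟩) (a₂ := j₀ _) ?_)
    rw [dρ, hj₀, hj₀]; rfl
  · obtain ⟨x, hx⟩ : ∃ x, κ₀ x = Additive.ofMul (π (g : Q ⧸ C)) := ⟨κ₀.symm _, κ₀.apply_symm_apply _⟩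
    have hmem : (σ x).toMul⁻¹ * (g : Q ⧸ C) ∈ A := by
      rw [← hπ0, map_mul, map_inv, hπu, hx]; exact inv_mul_cancel _
    obtain ⟨y, hy⟩ : ∃ y, κ₀ y = Additive.ofMul (⟨d ⟨_, hmem⟩, dC _⟩ : ↥C) := ⟨κ₀.symm _, κ₀.apply_symm_apply _⟩
    obtain ⟨c, hc, e⟩ := liftmk (a := u x * w y) (b := g) (by
      rw [QuotientGroup.mk_mul, mku, mkw, hy, toMul_ofMul]
      show (σ x).toMul * (j₀ _ : Q ⧸ C) = g
      rw [show (j₀ (⟨d ⟨_, hmem⟩, dC _⟩ : ↥C) : Q ⧸ C) = (σ x).toMul⁻¹ * (g : Q ⧸ C) from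
        congrArg Subtype.val (dinj (a₂ := ⟨_, hmem⟩) (hj₀ _)), mul_inv_cancel_left])
    exact ⟨x, y, c, hc, e⟩
  · have e : (σ x).toMul * j (κ₀ y).toMul = 1 := by
      rw [← mku, ← mkw, ← QuotientGroup.mk_mul, QuotientGroup.eq_one_iff]; exact hxy
    have e2 := congrArg π e
    rw [map_mul, hπu, (hπ0 (j (κ₀ y).toMul)).2 (j₀ (κ₀ y).toMul).2, mul_one, map_one] at e2
    have hx : x = 0 := κ₀.injective ((congrArg Additive.ofMul e2).trans (map_zero κ₀).symm)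
    subst hx
    rw [map_zero, toMul_zero, one_mul] at e
    have hy1 : j₀ (κ₀ y).toMul = 1 := Subtype.ext e
    have := hj₀ (κ₀ y).toMul
    rw [hy1, map_one] at this
    exact ⟨rfl, κ₀.injective ((congrArg Additive.ofMul (Subtype.ext this.symm : (κ₀ y).toMul = 1)).trans
      (map_zero κ₀).symm)⟩
  · rw [QuotientGroup.mk_mul, ← mka, mku, mkw]
    have e1 : (⟨_, hδ (σ x).toMul⟩ : ↥A) = j₀ (κ₀ x).toMul :=
      dinj (by rw [hj₀, ← hπu]; rfl)
    show (σ x).toMul * (j₀ (κ₀ x).toMul : Q ⧸ C) = _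
    rw [← congrArg Subtype.val e1, mul_inv_cancel_left]
  · have e := hd (w x) (hwA x)
    rw [show (⟨_, hwA x⟩ : ↥A) = j₀ (κ₀ x).toMul from Subtype.ext (mkw x), hj₀] at e
    show α (w x) = w x * ((κ₀ x).toMul : Q)
    rw [e, mul_inv_cancel_left]

/-- A nonabelian group of order `q³` with squares in `C`: the data. -/
theorem Sys.exists_data [Finite Q] (h : Sys α ρ C n) (hexp : ∀ x : Q, x * x ∈ C)
    (hcard : Nat.card Q = (2 ^ n) ^ 3) (hna : ∃ a b : Q, a * b ≠ b * a) :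
    ∃ (F : Type) (_ : Field F) (_ : Fintype F) (_ : CharP F 2) (lam a b : F) (κ u w : F → Q),
      Fintype.card F = 2 ^ n ∧ b ≠ 0 ∧ IsCoord ρ C lam κ ∧ IsLift ρ lam C u ∧ IsLift ρ lam C w ∧
      (∀ g, ∃ x y, ∃ c ∈ C, g = u x * w y * c) ∧ (∀ x y, u x * w y ∈ C → x = 0 ∧ y = 0) ∧
      (∀ x, ∃ c ∈ C, α (u x) = u x * w x * c) ∧ (∀ x, α (w x) = w x * κ x) ∧
      (∀ r s, ⁅u (r * r), w (s * s)⁆ = κ (r * s * b)) ∧
      (∀ x y, ⁅u x, u y⁆ = 1) ∧ (∀ x y, ⁅w x, w y⁆ = 1) ∧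
      (∀ r s, u (r * r) * w (s * s) * (u (r * r) * w (s * s)) =
        κ (r * r * a + r * s * b + s * s * b)) := by
  obtain ⟨F, iF, iFin, hchar, lam, κ, u, w, hF, hκ, hu, hw, hdec, huniq, hαu, hαw⟩ :=
    h.exists_basis hexp hcard
  have hcomm : ∀ a b : Q, ⁅a, b⁆ ∈ C := fun a b => by
    have e : ⁅a, b⁆ = (a * b) * (a * b) * (b⁻¹ * (a⁻¹ * a⁻¹) * b⁻¹⁻¹) * (b⁻¹ * b⁻¹) := by
      simp [commutatorElement_def, mul_assoc]
    rw [e]
    exact mul_mem (mul_mem (hexp _) (h.normal.conj_mem _ (hexp _) _)) (hexp _)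
  have hcK : ∀ k ∈ C, ∀ g : Q, Commute k g := fun k hk g => h.commute hk g
  obtain ⟨b, hb, hb1⟩ := pairing h hκ hu hw (fun k hk y => hcK k hk _)
    (fun l hl x => ⟨hcK l hl _, hcK l hl _⟩) (fun x y => hcomm _ _)
  have huu := pairing_self h hκ hu (fun k hk x => ⟨hcK k hk _, hcK k hk _⟩) (fun x y => hcomm _ _)
  have hww := pairing_self h hκ hw (fun k hk x => ⟨hcK k hk _, hcK k hk _⟩) (fun x y => hcomm _ _)
  have hsq2 : ∀ g c : Q, c ∈ C → g * c * (g * c) = g * g := fun g c hc => by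
    rw [(hcK c hc g).mul_mul_mul_comm, h.elem c hc, mul_one]
  have hmul : ∀ g k : Q, g * k * (g * k) = g * g * (k * k) * ⁅g, k⁆ := fun g k => by
    have hz := h.le_center (hcomm g k)
    calc g * k * (g * k) = g * g * (g⁻¹ * (k * g) * k) := by group
      _ = g * g * (g⁻¹ * (⁅g, k⁆⁻¹ * (g * k)) * k) := by simp [commutatorElement_def, mul_assoc]
      _ = g * g * ((g⁻¹ * ⁅g, k⁆⁻¹ * g) * (k * k)) := by group
      _ = g * g * (k * k) * ⁅g, k⁆⁻¹ := by
        rw [show g⁻¹ * ⁅g, k⁆⁻¹ * g = ⁅g, k⁆⁻¹ by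
          rw [Subgroup.mem_center_iff.1 (inv_mem hz) g⁻¹, inv_mul_cancel_right],
          ← Subgroup.mem_center_iff.1 (inv_mem hz) (k * k)]
        simp only [mul_assoc]
      _ = _ := by rw [h.inv_eq (hcomm g k)]
  obtain ⟨a, ha1, -⟩ := square_lift h hκ hu (fun x => hexp _) 1
  obtain ⟨a', ha'1, -⟩ := square_lift h hκ hw (fun x => hexp _) 1
  have ha' : a' = b := by
    obtain ⟨c, hc, e⟩ := hαu 1
    have e1 : κ a = κ (a + a' + b) := by
      rw [hκ.add, hκ.add, ← ha1, ← ha'1, ← hb1]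
      conv_lhs => rw [← (h.fixed _).1 (hexp (u 1)), map_mul, e, hsq2 _ c hc, hmul]
    linear_combination (norm := ring_nf) -(hκ.inj e1) - CharTwo.add_self_eq_zero b
  have hbne : b ≠ 0 := by
    intro hb0
    obtain ⟨g, k, hgk⟩ := hna
    apply hgk
    have huw : ∀ x y, Commute (u x) (w y) := fun x y => by
      obtain ⟨r, rfl⟩ := FiniteField.isSquare_of_char_two (ringChar.eq F 2) x
      obtain ⟨s, rfl⟩ := FiniteField.isSquare_of_char_two (ringChar.eq F 2) y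
      exact commutatorElement_eq_one_iff_mul_comm.1 (by rw [hb, hb0, mul_zero, hκ.map_zero])
    obtain ⟨x, y, c, hc, rfl⟩ := hdec g
    obtain ⟨x', y', c', hc', rfl⟩ := hdec k
    have h1 : ∀ z, (∀ t, Commute (u t) z) → (∀ t, Commute (w t) z) → Commute (u x * w y * c) z :=
      fun z p r => ((p x).mul_left (r y)).mul_left (hcK c hc z)
    exact (((h1 _ (fun t => huu t x') (fun t => (huw x' t).symm)).mul_right
      (h1 _ (fun t => huw t y') (fun t => hww t y'))).mul_right (hcK c' hc' _).symm).eq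
  refine ⟨F, iF, iFin, hchar, lam, a, b, κ, u, w, hF, hbne, hκ, hu, hw, hdec, huniq, hαu, hαw, hb,
    fun x y => commutatorElement_eq_one_iff_mul_comm.2 (huu x y).eq,
    fun x y => commutatorElement_eq_one_iff_mul_comm.2 (hww x y).eq, fun r s => ?_⟩
  obtain ⟨a₂, ha₂, hax⟩ := square_lift h hκ hu (fun x => hexp _) (r * r)
  obtain ⟨a₃, ha₃, hay⟩ := square_lift h hκ hw (fun x => hexp _) (s * s)
  rw [hmul, hax, hay, hb, hκ.inj (ha₂.symm.trans ha1), hκ.inj (ha₃.symm.trans ha'1), ha', ← hκ.add,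
    ← hκ.add, add_right_comm]

end Main

end CfsgLib.Singer2
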