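import Mathlib

/-!
A central extension of elementary abelian `2`-groups is determined by its squaring map.
-/

set_option autoImplicit false

open scoped commutatorElement

namespace CfsgLib.Singer2

/-- `Q` is a central extension of `M` by `C` with squaring map `f`. -/
def HasForm (Q : Type*) [Group Q] (M C : Type*) [Group M] [Group C] (f : M → C) : Prop :=
  ∃ (p : Q →* M) (κ : C →* Q), Function.Surjective p ∧ Function.Injective κ ∧
    (∀ g, p g = 1 ↔ g ∈ κ.range) ∧ (∀ c g, g * κ c = κ c * g) ∧ ∀ g, g * g = κ (f (p g))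

theorem HasForm.of_mulEquiv {Q Q' : Type*} [Group Q] [Group Q'] {M C : Type*} [Group M] [Group C]
    {f : M → C} (h : HasForm Q M C f) (e : Q ≃* Q') : HasForm Q' M C f := by
  obtain ⟨p, κ, hp, hκ, hk, hc, hsq⟩ := h
  refine ⟨p.comp e.symm.toMonoidHom, e.toMonoidHom.comp κ, hp.comp e.symm.surjective,
    e.injective.comp hκ, fun g => ?_, fun c g => ?_, fun g => ?_⟩
  · show p (e.symm g) = 1 ↔ _
    rw [hk]
    constructor
    · rintro ⟨c, hc⟩; exact ⟨c, by show e (κ c) = g; rw [hc, e.apply_symm_apply]⟩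
    · rintro ⟨c, rfl⟩; exact ⟨c, (e.symm_apply_apply _).symm⟩
  · show g * e (κ c) = e (κ c) * g
    conv_lhs => rw [← e.apply_symm_apply g, ← map_mul, hc, map_mul, e.apply_symm_apply]
  · show g * g = e (κ (f (p (e.symm g))))
    rw [← hsq, map_mul, e.apply_symm_apply]

/-- The iso. -/
theorem HasForm.nonempty_mulEquiv {Q Q' : Type*} [Group Q] [Group Q'] [Finite Q] [Finite Q']
    {M C : Type*} [Group M] [Group C] {f : M → C} (h : HasForm Q M C f) (h' : HasForm Q' M C f) :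
    Nonempty (Q ≃* Q') := by
  classical
  obtain ⟨p, κ, hp, hκ, hk, hc, hsq⟩ := h
  obtain ⟨p', κ', hp', hκ', hk', hc', hsq'⟩ := h'
  let E : Subgroup (Q × Q') := (p.comp (MonoidHom.fst Q Q')).eqLocus (p'.comp (MonoidHom.snd Q Q'))
  let D : Subgroup (Q × Q') := (κ.prod κ').range
  let N : Subgroup (Q × Q') := Subgroup.prod ⊥ κ'.range
  have hE : ∀ x, x ∈ E ↔ p x.1 = p' x.2 := fun x => Iff.rfl
  have hDE : D ≤ E := by
    rintro _ ⟨c, rfl⟩
    show p (κ c) = p' (κ' c)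
    rw [(hk _).2 ⟨c, rfl⟩, (hk' _).2 ⟨c, rfl⟩]
  have hsqD : ∀ x ∈ E, x * x ∈ D := fun x hx => ⟨f (p x.1), Prod.ext (hsq _).symm (by
    show κ' (f (p x.1)) = _
    rw [(hE x).1 hx]; exact (hsq' _).symm)⟩
  let P : Set (Subgroup (Q × Q')) := {Γ | D ≤ Γ ∧ Γ ≤ E ∧ Γ ⊓ N = ⊥}
  have hDN : D ⊓ N = ⊥ := by
    rw [Subgroup.eq_bot_iff_forall]
    rintro _ ⟨⟨c, rfl⟩, h1, -⟩
    have : κ c = 1 := Subgroup.mem_bot.1 h1
    have : c = 1 := hκ (this.trans (map_one κ).symm)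
    rw [this, map_one]
  obtain ⟨Γ, hΓ⟩ := (Set.toFinite P).exists_maximal ⟨D, le_rfl, hDE, hDN⟩
  obtain ⟨⟨hDΓ, hΓE, hΓN⟩, hmax⟩ := hΓ
  have hNE : N ≤ E := by
    rintro ⟨a, b⟩ ⟨ha, hb⟩
    show p a = p' b
    rw [show a = 1 from Subgroup.mem_bot.1 ha, map_one, (hk' b).2 hb]
  have hfull : ∀ x ∈ E, ∃ γ ∈ Γ, ∃ n ∈ N, x = γ * n := by
    intro x hx
    by_contra hcon
    push Not at hcon
    have hxΓ : x ∉ Γ := fun h => hcon x h 1 (one_mem _) (mul_one x).symm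
    have hconj : ∀ γ ∈ Γ, x * γ * x⁻¹ ∈ Γ := by
      intro γ hγ
      have e : x * γ * x⁻¹ = (x * γ) * (x * γ) * (γ⁻¹ * x⁻¹ * x⁻¹ * γ) * (γ * γ)⁻¹ * γ := by group
      rw [e]
      have hγE := hΓE hγ
      refine mul_mem (mul_mem (mul_mem (hDΓ (hsqD _ (mul_mem hx hγE))) ?_) (inv_mem (mul_mem hγ hγ))) hγ
      rw [show γ⁻¹ * x⁻¹ * x⁻¹ * γ = γ⁻¹ * (x * x)⁻¹ * γ by group]
      exact mul_mem (mul_mem (inv_mem hγ) (inv_mem (hDΓ (hsqD _ hx)))) hγ
    let Γ' : Subgroup (Q × Q') :=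
      { carrier := {y | y ∈ Γ ∨ y * x ∈ Γ}
        one_mem' := Or.inl (one_mem _)
        mul_mem' := by
          have hxx : x * x ∈ Γ := hDΓ (hsqD _ hx)
          have hinv : ∀ γ ∈ Γ, x⁻¹ * γ * x ∈ Γ := fun γ hγ => by
            rw [show x⁻¹ * γ * x = (x * x)⁻¹ * (x * γ * x⁻¹) * (x * x) by group]
            exact mul_mem (mul_mem (inv_mem hxx) (hconj γ hγ)) hxx
          rintro a b (ha | ha) (hb | hb)
          · exact Or.inl (mul_mem ha hb)
          · exact Or.inr (by rw [mul_assoc]; exact mul_mem ha hb)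
          · exact Or.inr (by
              rw [show a * b * x = (a * x) * (x⁻¹ * b * x) by group]
              exact mul_mem ha (hinv b hb))
          · exact Or.inl (by
              rw [show a * b = (a * x) * (x⁻¹ * (b * x) * x) * (x * x)⁻¹ by group]
              exact mul_mem (mul_mem ha (hinv _ hb)) (inv_mem hxx))
        inv_mem' := by
          intro a ha
          rcases ha with ha | ha
          · exact Or.inl (inv_mem ha)
          · refine Or.inr ?_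
            show a⁻¹ * x ∈ Γ
            rw [show a⁻¹ * x = x * (a * x)⁻¹ * x⁻¹ * (x * x) by group]
            exact mul_mem (hconj _ (inv_mem ha)) (hDΓ (hsqD _ hx)) }
    have hle : Γ ≤ Γ' := fun y hy => Or.inl hy
    have hmem : Γ' ∈ P := by
      refine ⟨hDΓ.trans hle, fun y hy => ?_, ?_⟩
      · rcases hy with hy | hy
        · exact hΓE hy
        · have := mul_mem (hΓE hy) (inv_mem hx)
          rwa [mul_inv_cancel_right] at this
      · rw [Subgroup.eq_bot_iff_forall]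
        rintro y ⟨hy | hy, hyN⟩
        · have : y ∈ Γ ⊓ N := ⟨hy, hyN⟩
          rwa [hΓN, Subgroup.mem_bot] at this
        · have hzN : x⁻¹ * y⁻¹ * x ∈ N := by
            obtain ⟨h1, c, h2⟩ := hyN
            refine ⟨?_, c⁻¹, ?_⟩
            · show x.1⁻¹ * y.1⁻¹ * x.1 ∈ (⊥ : Subgroup Q)
              rw [Subgroup.mem_bot.1 h1]; simp
            · show κ' c⁻¹ = x.2⁻¹ * y.2⁻¹ * x.2
              rw [← h2, map_inv, ← map_inv, mul_assoc, ← hc', inv_mul_cancel_left]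
          exfalso
          refine hcon ((y * x) * 1) (mul_mem hy (one_mem _)) (x⁻¹ * y⁻¹ * x) hzN ?_
          group
    exact hxΓ (hmax hmem hle (Or.inr (hDΓ (hsqD x hx))))
  -- the projections
  have hinj : ∀ (i : Γ), (i : Q × Q').1 = 1 → i = 1 := by
    rintro ⟨⟨a, b⟩, hab⟩ ha
    simp only at ha
    subst ha
    have hb : p' b = 1 := by rw [← (hE _).1 (hΓE hab), map_one]
    have : ((1 : Q), b) ∈ Γ ⊓ N := ⟨hab, Subgroup.mem_bot.2 rfl, (hk' b).1 hb⟩
    rw [hΓN, Subgroup.mem_bot] at this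
    exact Subtype.ext this
  have hinj2 : ∀ (i : Γ), (i : Q × Q').2 = 1 → i = 1 := by
    rintro ⟨⟨a, b⟩, hab⟩ hb
    simp only at hb
    subst hb
    have ha : p a = 1 := by rw [(hE _).1 (hΓE hab), map_one]
    obtain ⟨c, rfl⟩ := (hk a).1 ha
    have h1 : ((1 : Q), (κ' c)⁻¹) ∈ Γ ⊓ N := by
      refine ⟨?_, Subgroup.mem_prod.2 ⟨Subgroup.mem_bot.2 rfl, inv_mem (show κ' c ∈ κ'.range from ⟨c, rfl⟩)⟩⟩
      have := mul_mem hab (inv_mem (hDΓ ⟨c, rfl⟩))
      simpa using this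
    rw [hΓN, Subgroup.mem_bot, Prod.mk_eq_one, inv_eq_one] at h1
    exact Subtype.ext (Prod.ext (by
      show κ c = 1
      rw [show c = 1 from hκ' (h1.2.trans (map_one κ').symm), map_one]) rfl)
  let π₁ : Γ →* Q := (MonoidHom.fst Q Q').comp Γ.subtype
  let π₂ : Γ →* Q' := (MonoidHom.snd Q Q').comp Γ.subtype
  have hb₁ : Function.Bijective π₁ := by
    refine ⟨(injective_iff_map_eq_one π₁).2 hinj, fun g => ?_⟩
    obtain ⟨h, hh⟩ := hp' (p g)
    obtain ⟨γ, hγ, n, hn, e⟩ := hfull (g, h) hh.symm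
    refine ⟨⟨γ, hγ⟩, ?_⟩
    have := congrArg Prod.fst e
    rw [Prod.fst_mul, Subgroup.mem_bot.1 hn.1, mul_one] at this
    exact this.symm
  have hb₂ : Function.Bijective π₂ := by
    refine ⟨(injective_iff_map_eq_one π₂).2 hinj2, fun h => ?_⟩
    obtain ⟨g, hg⟩ := hp (p' h)
    obtain ⟨γ, hγ, n, ⟨hn1, c, hn2⟩, e⟩ := hfull (g, h) hg
    refine ⟨⟨γ, hγ⟩ * ⟨(κ c, κ' c), hDΓ ⟨c, rfl⟩⟩, ?_⟩
    show γ.2 * κ' c = h
    rw [hn2]
    exact (congrArg Prod.snd e).symm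
  exact ⟨(MulEquiv.ofBijective π₁ hb₁).symm.trans (MulEquiv.ofBijective π₂ hb₂)⟩

end CfsgLib.Singer2
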