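import Mathlib

/-!
Scalars from a transitive automorphism: a field structure on an elementary abelian `2`-group with
an automorphism transitive on nonidentity elements, the induced scalars on a module glued from two
copies of it, and the shape of equivariant biadditive maps.
-/

set_option autoImplicit false

namespace CfsgLib.Singer2

/-- A biadditive map over a finite field of characteristic two commuting with diagonal scalars is
`√(xy)` times a constant. -/
theorem bilin_sq {F : Type*} [Field F] [CharP F 2] (β : F → F → F)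
    (hl : ∀ x y z, β (x + y) z = β x z + β y z) (hr : ∀ x y z, β x (y + z) = β x y + β x z)
    (hc : ∀ c x y, β (c * x) (c * y) = c * β x y) (r s : F) :
    β (r * r) (s * s) = r * s * β 1 1 := by
  have h0l : ∀ z, β 0 z = 0 := fun z => by
    have h := hl 0 0 z
    rw [add_zero, CharTwo.add_self_eq_zero] at h
    exact h
  have h0r : ∀ z, β z 0 = 0 := fun z => by
    have h := hr z 0 0
    rw [add_zero, CharTwo.add_self_eq_zero] at h
    exact h
  have h2 : ∀ a : F, a + a = 0 := fun a => CharTwo.add_self_eq_zero a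
  have key : ∀ c, β 1 (c * c) = c * β 1 1 := by
    intro c
    rcases eq_or_ne c 0 with rfl | hc0
    · rw [zero_mul, h0r, zero_mul]
    rcases eq_or_ne c 1 with rfl | hc1
    · rw [one_mul, one_mul]
    have hd : c + 1 ≠ 0 := fun h => hc1 (by linear_combination h - h2 1)
    have sw : ∀ a : F, a ≠ 0 → β 1 a = a * β a⁻¹ 1 := fun a ha => by
      rw [← hc, mul_inv_cancel₀ ha, mul_one]
    have e : (c * (c + 1))⁻¹ = c⁻¹ + (c + 1)⁻¹ := by
      field_simp
      linear_combination -(h2 c)
    have h1 := sw _ (mul_ne_zero hc0 hd)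
    rw [e, hl, mul_add c c 1, mul_one, hr] at h1
    have a1 := sw c hc0
    have a2 := sw (c + 1) hd
    rw [hr] at a2
    linear_combination h1 - (c + 1) * a1 - c * a2 + c * h2 (β 1 c)
  rcases eq_or_ne r 0 with rfl | hr0
  · rw [zero_mul, h0l, zero_mul, zero_mul]
  · have hd : r * r ≠ 0 := mul_ne_zero hr0 hr0
    calc β (r * r) (s * s) = β (r * r * 1) (r * r * (s / r * (s / r))) := by
          rw [mul_one]; congr 1; field_simp
      _ = r * r * (s / r * β 1 1) := by rw [hc, key]
      _ = r * s * β 1 1 := by field_simp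

/-- A bare carrier for a transported field structure. -/
def Carrier (n : ℕ) : Type := Fin n

/-- An automorphism transitive on nonzero elements gives field scalars; they act on any module
glued from two copies. -/
theorem exists_scalars {C V : Type*} [AddCommGroup C] [Finite C] [AddCommGroup V] [Finite V]
    (hC2 : ∀ c : C, c + c = 0) (hV2 : ∀ v : V, v + v = 0) (q : ℕ) (hq : ∃ n, q = 2 ^ n ∧ 2 ≤ q)
    (hcard : Nat.card C = q) (l : C ≃+ C) (htr : ∀ x y : C, x ≠ 0 → y ≠ 0 → ∃ k : ℕ, (l^[k]) x = y)
    (hl : ∀ c, (l^[q - 1]) c = c) (T : V ≃+ V) (hT : ∀ v, (T^[q - 1]) v = v)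
    (π : V →+ C) (hπ : ∀ v, π (T v) = l (π v)) (j : C →+ V) (hj : ∀ c, j (l c) = T (j c))
    (hjπ : ∀ v, π v = 0 → ∃ c, j c = v) (e : V) (he : π e ≠ 0) :
    ∃ (F : Type) (_ : Field F) (_ : Fintype F) (lam : F) (κ : F ≃+ C) (σ : F →+ V),
      Fintype.card F = q ∧ CharP F 2 ∧ (∀ x : F, x ≠ 0 → ∃ k : ℕ, lam ^ k = x) ∧
      (∀ x, κ (lam * x) = l (κ x)) ∧ (∀ x, σ (lam * x) = T (σ x)) ∧ (∀ x, π (σ x) = κ x) := by
  classical
  obtain ⟨n, hqn, hq2⟩ := hq
  let E := AddMonoid.End C × AddMonoid.End V
  let g : E := (l.toAddMonoidHom, T.toAddMonoidHom)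
  have gpow : ∀ k, ∀ c v, (g ^ k).1 c = (l^[k]) c ∧ (g ^ k).2 v = (T^[k]) v := by
    intro k
    induction k with
    | zero => exact fun c v => ⟨rfl, rfl⟩
    | succ k ih =>
      intro c v
      rw [pow_succ, Function.iterate_succ_apply, Function.iterate_succ_apply]
      exact ih (l c) (T v)
  let R : Subring E := Subring.closure {g}
  letI : CommRing R := { (inferInstance : Ring R) with
    mul_comm := fun a b => by
      obtain ⟨a, ha⟩ := a
      obtain ⟨b, hb⟩ := b
      apply Subtype.ext
      show a * b = b * a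
      have hgle : R ≤ Subring.centralizer ({g} : Set E) := Subring.closure_le.2 (by
        intro x hx; rw [Set.mem_singleton_iff] at hx; subst hx
        exact Subring.mem_centralizer_iff.2 fun y hy => by rw [Set.mem_singleton_iff.1 hy])
      have : R ≤ Subring.centralizer ({a} : Set E) := Subring.closure_le.2 (by
        intro x hx; rw [Set.mem_singleton_iff] at hx; subst hx
        refine Subring.mem_centralizer_iff.2 fun y hy => ?_
        rw [Set.mem_singleton_iff.1 hy]
        exact (Subring.mem_centralizer_iff.1 (hgle ha) g rfl).symm)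
      exact Subring.mem_centralizer_iff.1 (this hb) a rfl }
  haveI : Finite (AddMonoid.End C) := Finite.of_injective (fun f => ⇑f) DFunLike.coe_injective
  haveI : Finite (AddMonoid.End V) := Finite.of_injective (fun f => ⇑f) DFunLike.coe_injective
  haveI : Finite R := inferInstance
  haveI : Nontrivial C := Finite.one_lt_card_iff_nontrivial.1 (by omega)
  have h11 : (1 : R) + 1 = 0 := by
    apply Subtype.ext
    exact Prod.ext (AddMonoidHom.ext fun c => hC2 c) (AddMonoidHom.ext fun v => hV2 v)
  have hne : (0 : R) ≠ 1 := fun h => by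
    obtain ⟨c, hc⟩ := exists_ne (0 : C)
    exact hc (DFunLike.congr_fun (congrArg (fun r : R => (r : E).1) h) c).symm
  haveI : Nontrivial R := ⟨⟨0, 1, hne⟩⟩
  haveI : CharP R 2 := CharTwo.of_one_ne_zero_of_two_eq_zero hne.symm (by rw [← one_add_one_eq_two, h11])
  -- every scalar satisfies `r ^ q = r`
  have hfrob : ∀ r : R, r ^ q = r := by
    have hg : g ^ (q - 1) = 1 := Prod.ext (AddMonoidHom.ext fun c => (gpow _ c 0).1.trans (hl c))
      (AddMonoidHom.ext fun v => (gpow _ 0 v).2.trans (hT v))
    have hle : R ≤ ((iterateFrobenius R 2 n).eqLocus (RingHom.id R)).map R.subtype := by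
      refine Subring.closure_le.2 ?_
      intro x hx
      rw [Set.mem_singleton_iff] at hx
      subst hx
      refine ⟨⟨g, Subring.subset_closure rfl⟩, ?_, rfl⟩
      show (iterateFrobenius R 2 n) _ = _
      rw [iterateFrobenius_def]
      apply Subtype.ext
      show g ^ (2 ^ n) = g
      rw [← hqn, show q = (q - 1) + 1 by omega, pow_succ, hg, one_mul]
    intro r
    obtain ⟨r', hr', e⟩ := hle r.2
    obtain rfl : r' = r := Subtype.ext e
    rw [hqn, ← iterateFrobenius_def (R := R) 2 n]
    exact hr'
  -- commuting with the generator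
  have comm : ∀ (r : R) c v, (r : E).1 (l c) = l ((r : E).1 c) ∧ (r : E).2 (T v) = T ((r : E).2 v) := by
    intro r c v
    have h := congrArg Subtype.val (mul_comm r (⟨g, Subring.subset_closure rfl⟩ : R))
    exact ⟨DFunLike.congr_fun (congrArg Prod.fst h) c, DFunLike.congr_fun (congrArg Prod.snd h) v⟩
  have commk : ∀ (r : R) (k : ℕ) c, (r : E).1 ((l^[k]) c) = (l^[k]) ((r : E).1 c) := by
    intro r k c
    induction k with
    | zero => rfl
    | succ k ih => rw [Function.iterate_succ_apply', Function.iterate_succ_apply', (comm r _ 0).1, ih]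
  have intj : ∀ (r : R) c, (r : E).2 (j c) = j ((r : E).1 c) := by
    intro r c
    obtain ⟨r, hr⟩ := r
    revert c
    induction hr using Subring.closure_induction with
    | mem x hx => rw [Set.mem_singleton_iff] at hx; subst hx; exact fun c => (hj c).symm
    | zero => exact fun c => (map_zero j).symm
    | one => exact fun c => rfl
    | add x y _ _ hx hy =>
      intro c
      show x.2 (j c) + y.2 (j c) = j (x.1 c + y.1 c)
      rw [hx c, hy c, map_add]
    | neg x _ hx =>
      intro c
      show -(x.2 (j c)) = j (-(x.1 c))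
      rw [hx c, map_neg]
    | mul x y _ _ hx hy =>
      intro c
      show x.2 (y.2 (j c)) = j (x.1 (y.1 c))
      rw [hy c]
      exact hx _
  have intπ : ∀ (r : R) v, π ((r : E).2 v) = (r : E).1 (π v) := by
    intro r v
    obtain ⟨r, hr⟩ := r
    revert v
    induction hr using Subring.closure_induction with
    | mem x hx => rw [Set.mem_singleton_iff] at hx; subst hx; exact hπ
    | zero => exact fun v => map_zero π
    | one => exact fun v => rfl
    | add x y _ _ hx hy =>
      intro v
      show π (x.2 v + y.2 v) = x.1 (π v) + y.1 (π v)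
      rw [map_add, hx, hy]
    | neg x _ hx =>
      intro v
      show π (-(x.2 v)) = -(x.1 (π v))
      rw [map_neg, hx]
    | mul x y _ _ hx hy =>
      intro v
      show π (x.2 (y.2 v)) = x.1 (y.1 (π v))
      rw [hx, hy]
  -- faithful on `C`
  have faith : ∀ r : R, (∀ c, (r : E).1 c = 0) → r = 0 := by
    intro r h
    have h2 : r * r = 0 := by
      apply Subtype.ext
      refine Prod.ext (AddMonoidHom.ext fun c => h _) (AddMonoidHom.ext fun v => ?_)
      obtain ⟨c, hc⟩ := hjπ ((r : E).2 v) (by rw [intπ, h])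
      show (r : E).2 ((r : E).2 v) = 0
      rw [← hc, intj r c, h, map_zero]
    rw [← hfrob r, show q = 2 + (q - 2) by omega, pow_add, sq, h2, zero_mul]
  obtain ⟨c₀, hc₀⟩ : ∃ c₀, c₀ = π e := ⟨_, rfl⟩
  have hc₀' : c₀ ≠ 0 := hc₀ ▸ he
  let ev : R →+ C :=
    { toFun := fun r => (r : E).1 c₀
      map_zero' := rfl
      map_add' := fun a b => rfl }
  have hev : Function.Bijective ev := by
    refine ⟨(injective_iff_map_eq_zero ev).2 fun r hr => faith r fun c => ?_, fun c => ?_⟩
    · rcases eq_or_ne c 0 with rfl | hc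
      · exact map_zero _
      obtain ⟨k, rfl⟩ := htr c₀ c hc₀' hc
      rw [commk, show (r : E).1 c₀ = 0 from hr]
      exact Function.iterate_fixed (map_zero l) k
    · rcases eq_or_ne c 0 with rfl | hc
      · exact ⟨0, rfl⟩
      obtain ⟨k, rfl⟩ := htr c₀ c hc₀' hc
      exact ⟨(⟨g, Subring.subset_closure rfl⟩ : R) ^ k, (gpow k c₀ 0).1⟩
  haveI : IsDomain R := by
    haveI : NoZeroDivisors R := ⟨fun {a b} hab => by
      by_contra hcon
      push Not at hcon
      obtain ⟨ha, hb⟩ := hcon
      have hb0 : (b : E).1 c₀ ≠ 0 := fun h => hb (hev.1 (h.trans (map_zero ev).symm))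
      refine ha (faith a fun c => ?_)
      rcases eq_or_ne c 0 with rfl | hc
      · exact map_zero _
      obtain ⟨k, rfl⟩ := htr _ c hb0 hc
      rw [commk, show (a : E).1 ((b : E).1 c₀) = 0 from
        DFunLike.congr_fun (congrArg (fun r : R => (r : E).1) hab) c₀]
      exact Function.iterate_fixed (map_zero l) k⟩
    exact NoZeroDivisors.to_isDomain R
  letI : Field R := (Finite.isField_of_domain R).toField
  let F := Carrier (Nat.card R)
  let e₀ : F ≃ R := (Finite.equivFin R).symm
  letI : Field F := e₀.field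
  let eF : F ≃+* R := e₀.ringEquiv
  haveI : Finite F := Finite.of_equiv R e₀.symm
  letI : Fintype F := Fintype.ofFinite F
  let lam : F := eF.symm ⟨g, Subring.subset_closure rfl⟩
  let κ : F ≃+ C := eF.toAddEquiv.trans (AddEquiv.ofBijective ev hev)
  let σ : F →+ V :=
    { toFun := fun x => (eF x : E).2 e
      map_zero' := by simp
      map_add' := fun a b => by rw [map_add]; rfl }
  refine ⟨F, inferInstance, inferInstance, lam, κ, σ, ?_, ?_, fun x hx => ?_, fun x => ?_, fun x => ?_,
    fun x => ?_⟩
  · rw [← Nat.card_eq_fintype_card, Nat.card_congr κ.toEquiv, hcard]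
  · exact charP_of_injective_ringHom (f := eF.symm.toRingHom) eF.symm.injective 2
  · obtain ⟨k, hk⟩ := htr c₀ (κ x) hc₀' (fun h => hx (κ.injective (h.trans (map_zero κ).symm)))
    refine ⟨k, κ.injective (Eq.trans ?_ hk)⟩
    show (eF (lam ^ k) : E).1 c₀ = _
    rw [map_pow, RingEquiv.apply_symm_apply]
    exact (gpow k c₀ 0).1
  · show (eF (lam * x) : E).1 c₀ = _
    rw [map_mul, RingEquiv.apply_symm_apply]
    rfl
  · show (eF (lam * x) : E).2 e = _
    rw [map_mul, RingEquiv.apply_symm_apply]
    rfl
  · show π ((eF x : E).2 e) = (eF x : E).1 c₀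
    rw [intπ, hc₀]

end CfsgLib.Singer2
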