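import Cfsg.Agent.Singer2.Classify

/-!
A configuration is abelian or of order `q³` with all squares fixed.
-/

set_option autoImplicit false
set_option maxHeartbeats 800000

open scoped commutatorElement

namespace CfsgLib.Singer2

universe u

variable {Q : Type u} [Group Q] {α ρ : MulAut Q} {C : Subgroup Q} {n : ℕ}

/-- An equivariant map onto `C` with central kernel makes the group abelian. -/
theorem Sys.comm_of_hom [Finite Q] (h : Sys α ρ C n) (π : Q →* Q) (hπC : ∀ g, π g ∈ C)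
    (hsurj : ∀ c ∈ C, ∃ g, π g = c) (hπρ : ∀ g, π (ρ g) = ρ (π g))
    (hker : ∀ g, π g = 1 → g ∈ Subgroup.center Q) (hcomm : ∀ a b : Q, ⁅a, b⁆ ∈ C) (a b : Q) :
    a * b = b * a := by
  classical
  have hq : 2 ≤ 2 ^ n := Nat.le_self_pow (by have := h.two_le; omega) 2
  letI : CommGroup ↥C := { (inferInstance : Group ↥C) with
    mul_comm := fun a b => Subtype.ext ((h.commute a.2 (b : Q)).eq) }
  let lC : MulAut ↥C := MulEquiv.ofBijective
    (MonoidHom.mk' (fun c : ↥C => (⟨ρ c, h.rho_mem c.2⟩ : ↥C))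
      (fun a b => Subtype.ext (map_mul ρ (a : Q) b)))
    (Finite.injective_iff_bijective.1 fun a b e => Subtype.ext (ρ.injective (congrArg Subtype.val e)))
  have hlC : ∀ k c, (((MulEquiv.toAdditive lC : Additive ↥C ≃+ Additive ↥C))^[k] c).toMul.1 =
      (ρ^[k]) c.toMul.1 := by
    intro k c
    induction k with
    | zero => rfl
    | succ k ih => rw [Function.iterate_succ_apply', Function.iterate_succ_apply', ← ih]; rfl
  obtain ⟨c₀, hc₀, hc₁⟩ := h.exists_ne_one
  let T : (Additive ↥C × Additive ↥C) ≃+ (Additive ↥C × Additive ↥C) :=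
    AddEquiv.prodCongr (MulEquiv.toAdditive lC) (MulEquiv.toAdditive lC)
  have hT : ∀ k v, (T^[k]) v = ((MulEquiv.toAdditive lC : Additive ↥C ≃+ Additive ↥C)^[k] v.1,
      (MulEquiv.toAdditive lC : Additive ↥C ≃+ Additive ↥C)^[k] v.2) := by
    intro k v
    induction k with
    | zero => rfl
    | succ k ih =>
      rw [Function.iterate_succ_apply', Function.iterate_succ_apply', Function.iterate_succ_apply', ih]
      rfl
  have hl1 : ∀ c, ((MulEquiv.toAdditive lC : Additive ↥C ≃+ Additive ↥C)^[2 ^ n - 1]) c = c := fun c =>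
    Subtype.ext ((hlC _ c).trans (h.order _))
  obtain ⟨F, iF, iFin, lam, κ₀, σ, hFcard, hchar, hgen, hκl, -, -⟩ :=
    exists_scalars (C := Additive ↥C) (V := Additive ↥C × Additive ↥C)
      (fun c => Subtype.ext (h.elem _ c.toMul.2))
      (fun v => Prod.ext (Subtype.ext (h.elem _ v.1.toMul.2)) (Subtype.ext (h.elem _ v.2.toMul.2)))
      (2 ^ n) ⟨n, rfl, hq⟩ h.card (MulEquiv.toAdditive lC)
      (fun x y hx hy => by
        obtain ⟨k, hk⟩ := h.trans x.toMul.1 x.toMul.2 y.toMul.1 y.toMul.2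
          (fun e => hx (Subtype.ext e)) (fun e => hy (Subtype.ext e))
        exact ⟨k, Subtype.ext ((hlC k x).trans hk)⟩)
      hl1 T (fun v => by rw [hT, hl1, hl1])
      (AddMonoidHom.fst _ _) (fun v => rfl) (AddMonoidHom.inr _ _)
      (fun c => Prod.ext (map_zero (MulEquiv.toAdditive lC : Additive ↥C ≃+ Additive ↥C)).symm rfl) (fun v hv => ⟨v.2, Prod.ext hv.symm rfl⟩)
      (Additive.ofMul ⟨c₀, hc₀⟩, 0) (fun e => hc₁ (congrArg Subtype.val e :))
  let κ : F → Q := fun x => ((κ₀ x).toMul : ↥C)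
  have hκ : IsCoord ρ C lam κ :=
    ⟨fun x y => by simp [κ, map_add], fun x y e => κ₀.injective (Subtype.ext e), fun x => (κ₀ x).toMul.2,
      fun c hc => ⟨κ₀.symm (Additive.ofMul ⟨c, hc⟩), by simp [κ]⟩,
      fun x => congrArg (fun z : Additive ↥C => ((z.toMul : ↥C) : Q)) (hκl x), hgen⟩
  choose u hu using fun x => hsurj (κ x) (hκ.mem x)
  have hlift : IsLift ρ lam π.ker u := by
    refine ⟨fun x y => ⟨(u x * u y)⁻¹ * u (x + y), ?_, (mul_inv_cancel_left _ _).symm⟩,
      fun x => ⟨(ρ (u x))⁻¹ * u (lam * x), ?_, (mul_inv_cancel_left _ _).symm⟩⟩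
    · rw [MonoidHom.mem_ker, map_mul, map_inv, map_mul, hu, hu, hu, hκ.add, inv_mul_cancel]
    · rw [MonoidHom.mem_ker, map_mul, map_inv, hπρ, hu, hu, hκ.equiv, inv_mul_cancel]
  have hK : ∀ k ∈ π.ker, ∀ g : Q, Commute k g := fun k hk g =>
    (Subgroup.mem_center_iff.1 (hker k hk) g).symm
  have hs := pairing_self h hκ hlift (fun k hk x => ⟨hK k hk _, hK k hk _⟩) (fun x y => hcomm _ _)
  have hdec : ∀ g, ∃ x, ∃ k ∈ π.ker, g = u x * k := fun g => by
    obtain ⟨x, hx⟩ := hκ.surj _ (hπC g)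
    exact ⟨x, (u x)⁻¹ * g, by rw [MonoidHom.mem_ker, map_mul, map_inv, hu, hx, inv_mul_cancel],
      (mul_inv_cancel_left _ _).symm⟩
  obtain ⟨x, k, hk, rfl⟩ := hdec a
  obtain ⟨y, l, hl, rfl⟩ := hdec b
  exact (((hs x y).mul_right (hK l hl _).symm).mul_left ((hK k hk _).mul_right (hK k hk _))).eq

theorem cubic_or_comm_aux (N : ℕ) : ∀ (Q : Type u) [Group Q] [Finite Q], Nat.card Q = N →
    ∀ (α ρ : MulAut Q) (C : Subgroup Q) (n : ℕ), Sys α ρ C n →
      (∀ x y : Q, x * y = y * x) ∨ (Nat.card Q = (2 ^ n) ^ 3 ∧ ∀ x : Q, x * x ∈ C) := by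
  induction N using Nat.strong_induction_on with
  | _ N ih =>
  intro Q _ _ hN α ρ C n h
  classical
  haveI : Fact (Nat.Prime 2) := ⟨Nat.prime_two⟩
  haveI := h.normal
  have hn2 := h.two_le
  have hq : 2 ≤ 2 ^ n := Nat.le_self_pow (by omega) 2
  have hcardQ : Nat.card Q = Nat.card (Q ⧸ C) * 2 ^ n := by
    rw [Subgroup.card_eq_card_quotient_mul_card_subgroup C, h.card]
  by_cases hne : C = ⊤
  · exact Or.inl fun x y => (h.commute (hne ▸ Subgroup.mem_top x) y).eq
  obtain ⟨α', ρ', A, d, hA, mka, mkr, dinj, dC, dsurj, hd, dρ⟩ := h.quotient hne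
  have hlt : Nat.card (Q ⧸ C) < N := by
    rw [← hN, hcardQ]
    have := Nat.card_pos (α := Q ⧸ C)
    nlinarith
  have mksurj : ∀ v : Q ⧸ C, ∃ g : Q, (g : Q ⧸ C) = v := QuotientGroup.mk_surjective
  by_cases hVab : ∀ x y : Q ⧸ C, x * y = y * x
  · have hcomm : ∀ a b : Q, ⁅a, b⁆ ∈ C := fun a b => by
      rw [← QuotientGroup.eq_one_iff, ← QuotientGroup.mk'_apply, map_commutatorElement]
      exact commutatorElement_eq_one_iff_mul_comm.2 (hVab _ _)
    letI : CommGroup (Q ⧸ C) := { (inferInstance : Group (Q ⧸ C)) with mul_comm := hVab }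
    by_cases hinv : ∀ v : Q ⧸ C, v * v = 1 → v ∈ A
    · left
      obtain ⟨m, hm, hmin⟩ : ∃ m, (∀ v : Q ⧸ C, v ^ 2 ^ m = 1) ∧ ∀ k < m, ¬ ∀ v : Q ⧸ C, v ^ 2 ^ k = 1 := by
        have hex : ∃ m, ∀ v : Q ⧸ C, v ^ 2 ^ m = 1 := by
          obtain ⟨k, hk⟩ := IsPGroup.iff_card.1 hA.two
          exact ⟨k, fun v => by rw [← hk, pow_card_eq_one']⟩
        exact ⟨Nat.find hex, Nat.find_spec hex, fun k hk => Nat.find_min hex hk⟩
      obtain ⟨m, rfl⟩ : ∃ k, m = k + 1 := by
        refine ⟨m - 1, ?_⟩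
        rcases m with _ | m
        · exfalso
          obtain ⟨a, ha, ha1⟩ := hA.exists_ne_one
          exact ha1 (by have := hm a; rwa [pow_zero, pow_one] at this)
        · rfl
      let p₀ : (Q ⧸ C) →* (Q ⧸ C) := powMonoidHom (2 ^ m)
      have hp₀A : ∀ v, p₀ v ∈ A := fun v => hinv _ (by
        show v ^ 2 ^ m * v ^ 2 ^ m = 1
        rw [← pow_add, ← two_mul, ← pow_succ', hm])
      have hp₀ρ : ∀ v, p₀ (ρ' v) = ρ' (p₀ v) := fun v => (map_pow ρ' v _).symm
      have hrange : p₀.range = A := by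
        refine le_antisymm (by rintro _ ⟨v, rfl⟩; exact hp₀A v) ?_
        obtain ⟨v, hv⟩ := not_forall.1 (hmin m (Nat.lt_succ_self m))
        refine hA.le_of_inv ?_ ⟨v, rfl⟩ (hp₀A v) hv
        rintro _ ⟨v, rfl⟩
        exact ⟨ρ' v, hp₀ρ v⟩
      let sq : (Q ⧸ C) →* (Q ⧸ C) := powMonoidHom 2
      have hsqker : sq.range = p₀.ker := by
        refine Subgroup.eq_of_le_of_card_ge ?_ ?_
        · rintro _ ⟨v, rfl⟩
          show (v ^ 2) ^ 2 ^ m = 1
          rw [← pow_mul, ← pow_succ', hm]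
        · have h1 : ∀ f : (Q ⧸ C) →* (Q ⧸ C), Nat.card (Q ⧸ C) = Nat.card ↥f.range * Nat.card ↥f.ker :=
            fun f => by
              rw [Subgroup.card_eq_card_quotient_mul_card_subgroup f.ker,
                Nat.card_congr (QuotientGroup.quotientKerEquivRange f).toEquiv]
          have e1 := h1 p₀
          have e2 := h1 sq
          have hsk : sq.ker = A := le_antisymm (fun v hv => hinv v (by rw [← pow_two]; exact hv))
            (fun v hv => by show v ^ 2 = 1; rw [pow_two]; exact hA.elem v hv)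
          rw [hrange] at e1
          rw [hsk, hA.card] at e2
          rw [hA.card, e2, mul_comm] at e1
          exact Nat.le_of_mul_le_mul_left e1.ge (by omega)
      let π : Q →* Q := d.comp ((p₀.comp (QuotientGroup.mk' C)).codRestrict A fun g => hp₀A _)
      refine h.comm_of_hom π (fun g => dC _) (fun c hc => ?_) (fun g => ?_) (fun g hg => ?_) hcomm
      · obtain ⟨⟨a, ha⟩, hac⟩ := dsurj c hc
        obtain ⟨v, hv⟩ := hrange.ge ha
        obtain ⟨g, rfl⟩ := mksurj v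
        exact ⟨g, by rw [← hac]; show d _ = d _; congr 1; exact Subtype.ext hv⟩
      · show d ⟨p₀ ((ρ g : Q) : Q ⧸ C), hp₀A _⟩ = ρ (d ⟨p₀ (g : Q ⧸ C), hp₀A _⟩)
        rw [← dρ ⟨_, hp₀A _⟩ (hA.rho_mem (hp₀A _))]
        congr 1
        exact Subtype.ext (show p₀ ((ρ g : Q) : Q ⧸ C) = ρ' (p₀ (g : Q ⧸ C)) by rw [← mkr, hp₀ρ])
      · have hgk : (g : Q ⧸ C) ∈ p₀.ker :=
          congrArg Subtype.val (dinj (hg.trans (map_one d).symm) :)
        rw [← hsqker] at hgk
        obtain ⟨v, hv⟩ := hgk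
        obtain ⟨k, rfl⟩ := mksurj v
        have hc : (k * k)⁻¹ * g ∈ C := QuotientGroup.eq.1 (show ((k * k : Q) : Q ⧸ C) = g by
          rw [QuotientGroup.mk_mul, ← pow_two]; exact hv)
        rw [← mul_inv_cancel_left (k * k) g]
        refine mul_mem (Subgroup.mem_center_iff.2 fun y => ?_) (h.le_center hc)
        refine (commutatorElement_eq_one_iff_mul_comm.1 ?_).symm
        rw [comm_left (h.le_center (hcomm k y)), h.elem _ (hcomm k y)]
    · right
      have hexp : ∀ v : Q ⧸ C, v * v = 1 := (hA.abelian hVab).resolve_right hinv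
      have hexp' : ∀ x : Q, x * x ∈ C := fun x => (QuotientGroup.eq_one_iff (x * x)).1 (by rw [QuotientGroup.mk_mul]; exact hexp _)
      refine ⟨?_, hexp'⟩
      let δ : (Q ⧸ C) →* (Q ⧸ C) := MonoidHom.mk' (fun v => v⁻¹ * α' v) (fun a b => by
        rw [map_mul, mul_inv_rev, mul_comm b⁻¹, mul_mul_mul_comm])
      have hker : δ.ker = A := Subgroup.ext fun v => by
        rw [MonoidHom.mem_ker, hA.fixed]
        show v⁻¹ * α' v = 1 ↔ _
        rw [inv_mul_eq_one, eq_comm]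
      have hrg : δ.range = A := by
        have hle : δ.range ≤ A := by
          rintro _ ⟨v, rfl⟩
          show v⁻¹ * α' v ∈ A
          rw [hA.fixed, map_mul, map_inv, hA.invol, inv_eq_of_mul_eq_one_right (hexp _),
            inv_eq_of_mul_eq_one_right (hexp v), mul_comm]
        push Not at hinv
        obtain ⟨v, -, hv⟩ := hinv
        refine le_antisymm hle (hA.le_of_inv ?_ ⟨v, rfl⟩ (hle ⟨v, rfl⟩) ?_)
        · rintro _ ⟨w, rfl⟩
          exact ⟨ρ' w, by show (ρ' w)⁻¹ * α' (ρ' w) = ρ' (w⁻¹ * α' w); rw [map_mul, map_inv, hA.comm]⟩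
        · intro e; exact hv (hker ▸ (MonoidHom.mem_ker.2 e))
      rw [hcardQ, Subgroup.card_eq_card_quotient_mul_card_subgroup δ.ker,
        Nat.card_congr (QuotientGroup.quotientKerEquivRange δ).toEquiv, hker, hrg, hA.card]
      ring
  · -- a nonabelian quotient is impossible
    exfalso
    rcases ih _ hlt (Q ⧸ C) rfl α' ρ' A n hA with hab | ⟨hV3, hVsq⟩
    · exact hVab hab
    push Not at hVab
    obtain ⟨F, iF, iFin, hchar, lam, a, b, κV, uV, wV, hFcard, hb0, hκV, huV, hwV, hdec, -, hαu, hαw,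
      hbV, huuV, hwwV, -⟩ := hA.exists_data hVsq hV3 hVab
    let κ : F → Q := fun x => d ⟨κV x, hκV.mem x⟩
    let Z : F → Q := fun x => (κV x).out
    let U : F → Q := fun x => (uV x).out
    let W : F → Q := fun x => (wV x).out
    let Ab : Subgroup Q := A.comap (QuotientGroup.mk' C)
    have hCAb : C ≤ Ab := fun c hc => by
      show (c : Q ⧸ C) ∈ A
      rw [(QuotientGroup.eq_one_iff c).2 hc]; exact one_mem _
    have mo : ∀ v : Q ⧸ C, (v.out : Q ⧸ C) = v := QuotientGroup.out_eq'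
    have inC : ∀ {x y : Q}, (x : Q ⧸ C) = (y : Q ⧸ C) → ∃ c ∈ C, y = x * c := fun {x y} e =>
      ⟨x⁻¹ * y, QuotientGroup.eq.1 e, (mul_inv_cancel_left _ _).symm⟩
    have inAb : ∀ {x y : Q}, ∀ v ∈ A, (x : Q ⧸ C) * v = (y : Q ⧸ C) → ∃ k ∈ Ab, y = x * k :=
      fun {x y} v hv e => ⟨x⁻¹ * y, by
        show ((x⁻¹ * y : Q) : Q ⧸ C) ∈ A
        rw [QuotientGroup.mk_mul, QuotientGroup.mk_inv, ← e, inv_mul_cancel_left]; exact hv,
        (mul_inv_cancel_left _ _).symm⟩
    have hκ : IsCoord ρ C lam κ := by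
      refine ⟨fun x y => ?_, fun x y e => hκV.inj (congrArg Subtype.val (dinj e)), fun x => dC _,
        fun c hc => ?_, fun x => ?_, hκV.gen⟩
      · show d _ = d _ * d _
        rw [← map_mul]; congr 1; exact Subtype.ext (hκV.add x y)
      · obtain ⟨⟨v, hv⟩, e⟩ := dsurj c hc
        obtain ⟨x, rfl⟩ := hκV.surj v hv
        exact ⟨x, e⟩
      · show d _ = ρ (d _)
        rw [← dρ ⟨_, hκV.mem x⟩ (hA.rho_mem (hκV.mem x))]
        congr 1; exact Subtype.ext (hκV.equiv x)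
    have hZ : IsLift ρ lam C Z := ⟨fun x y => inC (by simp only [Z, QuotientGroup.mk_mul, mo, hκV.add]),
      fun x => inC (by simp only [Z, ← mkr, mo, hκV.equiv])⟩
    have hU : IsLift ρ lam Ab U := ⟨fun x y => by
        obtain ⟨k, hk, e⟩ := huV.add x y
        exact inAb k hk (by simp only [U, QuotientGroup.mk_mul, mo, e]),
      fun x => by
        obtain ⟨k, hk, e⟩ := huV.equiv x
        exact inAb k hk (by simp only [U, ← mkr, mo, e])⟩
    have hW : IsLift ρ lam Ab W := ⟨fun x y => by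
        obtain ⟨k, hk, e⟩ := hwV.add x y
        exact inAb k hk (by simp only [W, QuotientGroup.mk_mul, mo, e]),
      fun x => by
        obtain ⟨k, hk, e⟩ := hwV.equiv x
        exact inAb k hk (by simp only [W, ← mkr, mo, e])⟩
    have hZA : ∀ x, Z x ∈ Ab := fun x => by
      show ((Z x : Q) : Q ⧸ C) ∈ A
      simp only [Z, mo]; exact hκV.mem x
    have hAdec : ∀ g ∈ Ab, ∃ x, ∃ c ∈ C, g = Z x * c := fun g hg => by
      obtain ⟨x, hx⟩ := hκV.surj _ (show (g : Q ⧸ C) ∈ A from hg)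
      exact ⟨x, inC (by simp only [Z, mo, hx])⟩
    have hcenA : ∀ g : Q, ∀ k ∈ Ab, ⁅k, g⁆ ∈ C := fun g k hk => by
      rw [← QuotientGroup.eq_one_iff, ← QuotientGroup.mk'_apply, map_commutatorElement]
      exact commutatorElement_eq_one_iff_mul_comm.2 ((hA.commute hk _).eq)
    have hcK : ∀ c ∈ C, ∀ g : Q, Commute c g := fun c hc g => h.commute hc g
    have hZZ := pairing_self h hκ hZ (fun k hk x => ⟨hcK k hk _, hcK k hk _⟩)
      (fun x y => hcenA _ _ (hZA x))
    have hAA : ∀ k ∈ Ab, ∀ l ∈ Ab, Commute k l := fun k hk l hl => by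
      obtain ⟨x, c, hc, rfl⟩ := hAdec k hk
      obtain ⟨y, e, he, rfl⟩ := hAdec l hl
      exact ((hZZ x y).mul_right (hcK e he _).symm).mul_left (hcK c hc _)
    have hρZ : ∀ x, ρ (Z x) ∈ Ab := fun x => by
      show ((ρ (Z x) : Q) : Q ⧸ C) ∈ A
      rw [← mkr]; exact hA.rho_mem (hZA x)
    have hcommAb : ∀ g k : Q, ⁅g, k⁆ ∈ Ab := fun g k => by
      show ((⁅g, k⁆ : Q) : Q ⧸ C) ∈ A
      rw [← QuotientGroup.mk'_apply, map_commutatorElement]
      have e : ⁅(g : Q ⧸ C), (k : Q ⧸ C)⁆ =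
          (g * k : Q ⧸ C) * (g * k) * ((k : Q ⧸ C)⁻¹ * ((g : Q ⧸ C)⁻¹ * (g : Q ⧸ C)⁻¹) * (k : Q ⧸ C)⁻¹⁻¹) *
            ((k : Q ⧸ C)⁻¹ * (k : Q ⧸ C)⁻¹) := by simp [commutatorElement_def, mul_assoc]
      rw [QuotientGroup.mk'_apply, QuotientGroup.mk'_apply, e]
      exact mul_mem (mul_mem (hVsq _) (hA.normal.conj_mem _ (hVsq _) _)) (hVsq _)
    obtain ⟨i, hi0, hi1⟩ : ∃ i : F, i ≠ 0 ∧ i ≠ 1 := by
      have h2 : ({0, 1} : Finset F).card < (Finset.univ : Finset F).card := by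
        rw [Finset.card_univ, hFcard]
        refine lt_of_le_of_lt Finset.card_le_two ?_
        calc 2 < 2 ^ 2 := by norm_num
          _ ≤ 2 ^ n := Nat.pow_le_pow_right (by norm_num) hn2
      obtain ⟨i, -, hi⟩ := Finset.exists_mem_notMem_of_card_lt_card h2
      simp only [Finset.mem_insert, Finset.mem_singleton, not_or] at hi
      exact ⟨i, hi.1, hi.2⟩
    obtain ⟨rb, hrb⟩ := FiniteField.isSquare_of_char_two (ringChar.eq F 2) b
    have jac : ∀ (X : F → Q) (Y : Q), IsLift ρ lam Ab X →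
        (∀ s t, ⁅X s, X t⁆ ∈ C) → (∀ r, ∃ c ∈ C, ⁅X (r * r), Y⁆ = Z (r * b) * c) →
        ∀ x y, Commute (Z x) (X y) := by
      intro X Y hX hXX hXY
      obtain ⟨l, hl, -⟩ := pairing h hκ hZ hX (fun k hk y => hcK k hk _)
        (fun k hk x => ⟨hAA k hk _ (hZA x), hAA k hk _ (hρZ x)⟩) (fun x y => hcenA _ _ (hZA x))
      set j := i * i
      obtain ⟨c, hc, ec⟩ := hXY 1
      obtain ⟨c', hc', ec'⟩ := hXY j
      rw [one_mul, one_mul] at ec
      have hsw := comm_swap (e := X 1) (e' := X (j * j)) (f := Y) (h.le_center (hXX _ _))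
        (hAA _ (hcommAb _ _) _ (hcommAb _ _))
      rw [ec, ec', comm_congr_right (hcK c hc _), comm_congr_right (hcK c' hc' _),
        ← commutatorElement_inv (Z (j * b)) (X 1), ← commutatorElement_inv (Z b) (X (j * j)), inv_inj,
        show j * b = i * rb * (i * rb) by rw [hrb]; ring, ← one_mul (1 : F), hl, hrb, hl] at hsw
      have h1 := hκ.inj hsw
      have hl0 : l = 0 := by
        have h3 : rb * i * (i - 1) * l = 0 := by simp only [j] at h1; linear_combination -h1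
        have hrb0 : rb ≠ 0 := fun e => hb0 (by rw [hrb, e, mul_zero])
        rcases mul_eq_zero.1 h3 with h4 | h4
        · exact absurd h4 (mul_ne_zero (mul_ne_zero hrb0 hi0) (sub_ne_zero.2 hi1))
        · exact h4
      intro x y
      obtain ⟨r, rfl⟩ := FiniteField.isSquare_of_char_two (ringChar.eq F 2) x
      obtain ⟨s, rfl⟩ := FiniteField.isSquare_of_char_two (ringChar.eq F 2) y
      exact commutatorElement_eq_one_iff_mul_comm.1 (by rw [hl, hl0, mul_zero, hκ.map_zero])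
    have hUU : ∀ s t, ⁅U s, U t⁆ ∈ C := fun s t => by
      rw [← QuotientGroup.eq_one_iff, ← QuotientGroup.mk'_apply, map_commutatorElement]
      simp only [U, QuotientGroup.mk'_apply, mo, huuV]
    have hWW : ∀ s t, ⁅W s, W t⁆ ∈ C := fun s t => by
      rw [← QuotientGroup.eq_one_iff, ← QuotientGroup.mk'_apply, map_commutatorElement]
      simp only [W, QuotientGroup.mk'_apply, mo, hwwV]
    have hUW : ∀ r, ∃ c ∈ C, ⁅U (r * r), W 1⁆ = Z (r * b) * c := fun r => inC (by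
      rw [← QuotientGroup.mk'_apply (N := C) ⁅U (r * r), W 1⁆, map_commutatorElement]
      simp only [Z, U, W, QuotientGroup.mk'_apply, mo]
      have := hbV r 1
      rw [mul_one, mul_one] at this
      exact this.symm)
    have hWU : ∀ r, ∃ c ∈ C, ⁅W (r * r), U 1⁆ = Z (r * b) * c := fun r => inC (by
      rw [← QuotientGroup.mk'_apply (N := C) ⁅W (r * r), U 1⁆, map_commutatorElement,
        ← commutatorElement_inv]
      simp only [Z, U, W, QuotientGroup.mk'_apply, mo]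
      have := hbV 1 r
      rw [one_mul, one_mul] at this
      rw [this, hA.inv_eq (hκV.mem _)])
    have hZU := jac U (W 1) hU hUU hUW
    have hZW := jac W (U 1) hW hWW hWU
    have hAcen : ∀ k ∈ Ab, k ∈ Subgroup.center Q := fun k hk => Subgroup.mem_center_iff.2 fun g => by
      obtain ⟨z, c, hc, rfl⟩ := hAdec k hk
      obtain ⟨x, y, e, he, hg⟩ := hdec (g : Q ⧸ C)
      obtain ⟨l, hl, rfl⟩ := inAb (x := U x * W y) (y := g) e he
        (by simp only [U, W, QuotientGroup.mk_mul, mo]; exact hg.symm)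
      exact ((((hZU z x).mul_right (hZW z y)).mul_right (hAA _ (hZA z) _ hl)).mul_left
        (hcK c hc _)).symm.eq
    have hcc : ∀ g k : Q, ⁅g, k⁆ ∈ Subgroup.center Q := fun g k => hAcen _ (hcommAb g k)
    have hc2 : ⁅U 1, W 1⁆ * ⁅U 1, W 1⁆ = 1 := by
      rw [← comm_left (hcc _ _)]
      refine commutatorElement_eq_one_iff_mul_comm.2 (Subgroup.mem_center_iff.1 (hAcen _ ?_) _).symm
      show ((U 1 * U 1 : Q) : Q ⧸ C) ∈ A
      rw [QuotientGroup.mk_mul]
      exact hVsq _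
    obtain ⟨k₁, hk₁, e₁⟩ : ∃ k ∈ Ab, α (U 1) = U 1 * W 1 * k := by
      obtain ⟨c, hc, e⟩ := hαu 1
      exact inAb c hc (by simp only [U, W, QuotientGroup.mk_mul, ← mka, mo, e])
    obtain ⟨k₂, hk₂, e₂⟩ : ∃ k ∈ Ab, α (W 1) = W 1 * k := by
      exact inAb (κV 1) (hκV.mem 1) (by simp only [W, ← mka, mo, hαw])
    have hmemC : ⁅U 1, W 1⁆ ∈ C := by
      have hcent : ∀ k ∈ Ab, ∀ g : Q, Commute k g := fun k hk g =>
        (Subgroup.mem_center_iff.1 (hAcen k hk) g).symm
      rw [h.fixed, map_commutatorElement, e₁, e₂, comm_congr_left (hcent k₁ hk₁ _),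
        comm_congr_right (hcent k₂ hk₂ _), comm_left (a := U 1) (b := W 1) (by simp [one_mem]),
        commutatorElement_self, mul_one]
    obtain ⟨c, hc, e⟩ := hUW 1
    rw [one_mul, one_mul] at e
    rw [e] at hmemC
    have hZb : Z b ∈ C := by
      have := mul_mem hmemC (inv_mem hc)
      rwa [mul_inv_cancel_right] at this
    have h1 : κV b = 1 := by rw [← mo (κV b)]; exact (QuotientGroup.eq_one_iff _).2 hZb
    exact hb0 (hκV.inj (h1.trans hκV.map_zero.symm))

/-- The configuration is abelian or cubic. -/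
theorem Sys.cubic_or_comm [Finite Q] (h : Sys α ρ C n) :
    (∀ x y : Q, x * y = y * x) ∨ (Nat.card Q = (2 ^ n) ^ 3 ∧ ∀ x : Q, x * x ∈ C) :=
  cubic_or_comm_aux _ Q rfl α ρ C n h

end CfsgLib.Singer2
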