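import Cfsg.Agent.Singer2.Field
import Cfsg.Agent.Singer2.Extension
import Cfsg.Agent.TwoFpf.Tower

/-!
`2`-groups with commuting automorphisms `α`, of order two, and `ρ`, such that the fixed points of
`α` form an elementary abelian group on whose nonidentity elements `ρ` is transitive.
-/

set_option autoImplicit false
set_option maxHeartbeats 400000

open scoped commutatorElement

namespace CfsgLib.Singer2

universe u

variable {Q : Type u} [Group Q]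

/-- The configuration. -/
structure Sys (α ρ : MulAut Q) (C : Subgroup Q) (n : ℕ) : Prop where
  two : IsPGroup 2 Q
  two_le : 2 ≤ n
  invol : ∀ x, α (α x) = x
  comm : ∀ x, α (ρ x) = ρ (α x)
  fixed : ∀ x, x ∈ C ↔ α x = x
  elem : ∀ c ∈ C, c * c = 1
  card : Nat.card ↥C = 2 ^ n
  trans : ∀ x ∈ C, ∀ y ∈ C, x ≠ 1 → y ≠ 1 → ∃ k : ℕ, (ρ^[k]) x = y
  order : ∀ x, (ρ^[2 ^ n - 1]) x = x

variable {α ρ : MulAut Q} {C : Subgroup Q} {n : ℕ}

theorem Sys.rho_mem (h : Sys α ρ C n) {c : Q} (hc : c ∈ C) : ρ c ∈ C := by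
  rw [h.fixed, h.comm, (h.fixed c).1 hc]

theorem Sys.inv_eq (h : Sys α ρ C n) {c : Q} (hc : c ∈ C) : c⁻¹ = c :=
  inv_eq_of_mul_eq_one_right (h.elem c hc)

theorem Sys.exists_ne_one [Finite Q] (h : Sys α ρ C n) : ∃ c ∈ C, c ≠ 1 := by
  refine (Subgroup.bot_or_exists_ne_one C).resolve_left fun e => ?_
  have := h.card
  rw [e, Subgroup.card_bot] at this
  exact absurd this (Nat.one_lt_two_pow (by have := h.two_le; omega)).ne

/-- A nontrivial `ρ`-invariant subgroup meeting `C` nontrivially contains it. -/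
theorem Sys.le_of_inv (h : Sys α ρ C n) {H : Subgroup Q} (hH : ∀ x ∈ H, ρ x ∈ H) {c : Q}
    (hc : c ∈ H) (hcC : c ∈ C) (hc1 : c ≠ 1) : C ≤ H := by
  intro y hy
  rcases eq_or_ne y 1 with rfl | hy1
  · exact one_mem _
  obtain ⟨k, rfl⟩ := h.trans c hcC y hy hc1 hy1
  clear hy hy1
  induction k with
  | zero => exact hc
  | succ k ih => rw [Function.iterate_succ_apply']; exact hH _ ih

theorem Sys.le_center [Finite Q] (h : Sys α ρ C n) : C ≤ Subgroup.center Q := by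
  haveI : Fact (Nat.Prime 2) := ⟨Nat.prime_two⟩
  obtain ⟨c, hc, hc1⟩ := h.exists_ne_one
  haveI : Nontrivial Q := ⟨⟨c, 1, hc1⟩⟩
  haveI : Nontrivial ↥(Subgroup.center Q) := h.two.center_nontrivial
  have hinv : ∀ f : MulAut Q, ∀ z ∈ Subgroup.center Q, f z ∈ Subgroup.center Q := fun f z hz =>
    Subgroup.mem_center_iff.2 fun g => by
      have := congrArg f (Subgroup.mem_center_iff.1 hz (f.symm g))
      simpa using this
  let t : MulAut ↥(Subgroup.center Q) :=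
    { toFun := fun y => ⟨α y, hinv α y y.2⟩
      invFun := fun y => ⟨α y, hinv α y y.2⟩
      left_inv := fun y => Subtype.ext (h.invol y)
      right_inv := fun y => Subtype.ext (h.invol y)
      map_mul' := fun a b => Subtype.ext (map_mul α (a : Q) b) }
  obtain ⟨y, hy1, hy⟩ := CfsgLib.TwoFpf.exists_fixed_ne_one (h.two.to_subgroup _) (t := t)
    (fun y => Subtype.ext (h.invol y))
  exact h.le_of_inv (hinv ρ) y.2 ((h.fixed _).2 (congrArg Subtype.val hy))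
    (fun e => hy1 (Subtype.ext e))

theorem Sys.normal [Finite Q] (h : Sys α ρ C n) : C.Normal := ⟨fun c hc g => by
  rw [Subgroup.mem_center_iff.1 (h.le_center hc) g, mul_inv_cancel_right]; exact hc⟩

theorem Sys.commute [Finite Q] (h : Sys α ρ C n) {c : Q} (hc : c ∈ C) (g : Q) : Commute c g :=
  (Subgroup.mem_center_iff.1 (h.le_center hc) g).symm

/-- In an abelian configuration, either the group has exponent two or all involutions are fixed. -/
theorem Sys.abelian [Finite Q] (h : Sys α ρ C n) (hab : ∀ x y : Q, x * y = y * x) :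
    (∀ x : Q, x * x = 1) ∨ ∀ x : Q, x * x = 1 → x ∈ C := by
  by_contra hcon
  push Not at hcon
  obtain ⟨⟨x, hx⟩, e, he, heC⟩ := hcon
  have hm : ∀ a b : Q, a * b * (a * b) = a * a * (b * b) := fun a b =>
    (show Commute b a from hab b a).mul_mul_mul_comm a b
  -- an element of order four squaring into `C`
  obtain ⟨g, hg1, hg2⟩ : ∃ g : Q, g * g ≠ 1 ∧ g * g * (g * g) = 1 := by
    obtain ⟨k, hk⟩ := h.two x
    clear e he heC
    induction k generalizing x with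
    | zero => rw [pow_zero, pow_one] at hk; exact absurd (by rw [hk, one_mul]) hx
    | succ k ih =>
      by_cases h4 : x * x * (x * x) = 1
      · exact ⟨x, hx, h4⟩
      · exact ih (x * x) h4 (by rw [← hk, pow_succ', pow_mul, pow_two])
  let S : Subgroup Q :=
    { carrier := {y | y ∈ C ∧ ∃ z, z * z = y}
      one_mem' := ⟨one_mem _, 1, mul_one 1⟩
      mul_mem' := fun {a b} ⟨ha, u, hu⟩ ⟨hb, v, hv⟩ => ⟨mul_mem ha hb, u * v, by rw [hm, hu, hv]⟩
      inv_mem' := fun {a} ⟨ha, u, hu⟩ => ⟨inv_mem ha, u⁻¹, by rw [← mul_inv_rev, hu]⟩ }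
  have hS : ∀ y ∈ S, ρ y ∈ S := fun y ⟨hy, z, hz⟩ => ⟨h.rho_mem hy, ρ z, by rw [← map_mul, hz]⟩
  have hCS : C ≤ S := by
    by_cases hgC : g * g ∈ C
    · exact h.le_of_inv hS ⟨hgC, g, rfl⟩ hgC hg1
    · have hmem : g * g * α (g * g) ∈ C := by rw [h.fixed, map_mul, h.invol, hab]
      refine h.le_of_inv hS ⟨hmem, g * α g, ?_⟩ hmem fun e1 => hgC ?_
      · rw [hm, map_mul]
      · rw [h.fixed, eq_inv_of_mul_eq_one_right e1]
        exact inv_eq_of_mul_eq_one_right hg2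
  let S' : Subgroup Q :=
    { carrier := {y | y ∈ C ∧ ∃ z, z * z = 1 ∧ z⁻¹ * α z = y}
      one_mem' := ⟨one_mem _, 1, mul_one 1, by simp⟩
      mul_mem' := fun {a b} ⟨ha, u, hu1, hu⟩ ⟨hb, v, hv1, hv⟩ => ⟨mul_mem ha hb, u * v,
        by rw [hm, hu1, hv1, one_mul], by
          rw [map_mul, mul_inv_rev, hab v⁻¹ u⁻¹,
            (show Commute v⁻¹ (α u) from hab _ _).mul_mul_mul_comm, hu, hv]⟩
      inv_mem' := fun {a} ⟨ha, u, hu1, hu⟩ => ⟨inv_mem ha, u⁻¹, by rw [← mul_inv_rev, hu1, inv_one], by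
        rw [← hu, map_inv, mul_inv_rev, inv_inv, hab]⟩ }
  have hS' : ∀ y ∈ S', ρ y ∈ S' := fun y ⟨hy, z, hz1, hz⟩ =>
    ⟨h.rho_mem hy, ρ z, by rw [← map_mul, hz1, map_one], by rw [h.comm, ← map_inv, ← map_mul, hz]⟩
  have hde : e⁻¹ * α e ∈ C := by
    have hαe : α e * α e = 1 := by rw [← map_mul, he, map_one]
    rw [h.fixed, map_mul, map_inv, h.invol, inv_eq_of_mul_eq_one_right hαe,
      inv_eq_of_mul_eq_one_right he, hab]
  have hCS' : C ≤ S' := h.le_of_inv hS' ⟨hde, e, he, rfl⟩ hde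
    (fun e1 => heC ((h.fixed e).2 (inv_mul_eq_one.1 e1).symm))
  obtain ⟨c, hc, hc1⟩ := h.exists_ne_one
  obtain ⟨-, z, hz⟩ := hCS hc
  have hdz2 : (z⁻¹ * α z) * (z⁻¹ * α z) = 1 := by
    rw [hm, ← mul_inv_rev, ← map_mul, hz, (h.fixed c).1 hc, inv_mul_cancel]
  have hdz : z⁻¹ * α z ∈ C := by
    rw [h.fixed, map_mul, map_inv, h.invol]
    calc (α z)⁻¹ * z = (z⁻¹ * α z)⁻¹ := by group
      _ = _ := inv_eq_of_mul_eq_one_right hdz2
  obtain ⟨-, u, hu1, hu⟩ := hCS' hdz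
  have hzu : z * u⁻¹ ∈ C := by
    rw [h.fixed, map_mul, map_inv]
    have e1 : α z = z * (u⁻¹ * α u) := by rw [hu]; group
    rw [e1]; group
  apply hc1
  have := h.elem _ hzu
  rwa [hm, hz, ← mul_inv_rev, hu1, inv_one, mul_one] at this

/-- The induced configuration on `Q ⧸ C`, with the derivation `d`. -/
theorem Sys.quotient [Finite Q] (h : Sys α ρ C n) (hne : C ≠ ⊤) :
    haveI := h.normal
    ∃ (α' ρ' : MulAut (Q ⧸ C)) (A : Subgroup (Q ⧸ C)) (d : ↥A →* Q),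
      Sys α' ρ' A n ∧ (∀ g : Q, α' (g : Q ⧸ C) = ((α g : Q) : Q ⧸ C)) ∧
      (∀ g : Q, ρ' (g : Q ⧸ C) = ((ρ g : Q) : Q ⧸ C)) ∧ Function.Injective d ∧
      (∀ a, d a ∈ C) ∧ (∀ c ∈ C, ∃ a, d a = c) ∧
      (∀ (g : Q) (hg : (g : Q ⧸ C) ∈ A), d ⟨g, hg⟩ = g⁻¹ * α g) ∧
      (∀ (a : ↥A) (ha : ρ' (a : Q ⧸ C) ∈ A), d ⟨_, ha⟩ = ρ (d a)) := by
  classical
  haveI := h.normal
  haveI : Fact (Nat.Prime 2) := ⟨Nat.prime_two⟩
  have hmap : ∀ f : MulAut Q, (∀ c ∈ C, f c ∈ C) → C.map ↑(f : Q ≃* Q) = C := fun f hf =>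
    Subgroup.eq_of_le_of_card_ge (by rintro _ ⟨w, hw, rfl⟩; exact hf w hw)
      (Subgroup.card_map_of_injective f.injective).ge
  set α' := QuotientGroup.congr C C α (hmap α fun c hc => by rw [(h.fixed c).1 hc]; exact hc) with hα'
  set ρ' := QuotientGroup.congr C C ρ (hmap ρ fun c hc => h.rho_mem hc) with hρ'
  have mka : ∀ g : Q, α' (g : Q ⧸ C) = ((α g : Q) : Q ⧸ C) := fun g => QuotientGroup.congr_mk _ _ _ _ g
  have mkr : ∀ g : Q, ρ' (g : Q ⧸ C) = ((ρ g : Q) : Q ⧸ C) := fun g => QuotientGroup.congr_mk _ _ _ _ g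
  let A : Subgroup (Q ⧸ C) := α'.toMonoidHom.eqLocus (MonoidHom.id _)
  have hA : ∀ g : Q, (g : Q ⧸ C) ∈ A ↔ g⁻¹ * α g ∈ C := fun g => by
    show α' (g : Q ⧸ C) = g ↔ _
    rw [mka, eq_comm, QuotientGroup.eq]
  have hρA : ∀ v ∈ A, ρ' v ∈ A := by
    intro v hv
    obtain ⟨g, rfl⟩ := QuotientGroup.mk_surjective v
    rw [mkr, hA, h.comm, ← map_inv, ← map_mul]
    exact h.rho_mem ((hA g).1 hv)
  have hd : ∀ g k : Q, (g : Q ⧸ C) = k → g⁻¹ * α g = k⁻¹ * α k := fun g k e => by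
    have hc := QuotientGroup.eq.1 e
    have e1 : α k = α g * (g⁻¹ * k) := by
      rw [← (h.fixed _).1 hc, ← map_mul, mul_inv_cancel_left]
    rw [e1, ← mul_assoc k⁻¹, ← (h.commute hc (k⁻¹ * α g)).eq]
    group
  let d : ↥A →* Q := MonoidHom.mk' (fun a => (a : Q ⧸ C).out⁻¹ * α (a : Q ⧸ C).out) (fun a b => by
    rw [hd ((a * b : ↥A) : Q ⧸ C).out ((a : Q ⧸ C).out * (b : Q ⧸ C).out)
      (by rw [QuotientGroup.mk_mul, QuotientGroup.out_eq', QuotientGroup.out_eq', QuotientGroup.out_eq',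
        Subgroup.coe_mul])]
    have hac : (a : Q ⧸ C).out⁻¹ * α (a : Q ⧸ C).out ∈ C :=
      (hA _).1 (by rw [QuotientGroup.out_eq']; exact a.2)
    rw [map_mul, mul_inv_rev, mul_assoc, ← mul_assoc ((a : Q ⧸ C).out⁻¹), ← mul_assoc,
      ← (h.commute hac _).eq, mul_assoc])
  have hdg : ∀ (g : Q) (hg : (g : Q ⧸ C) ∈ A), d ⟨g, hg⟩ = g⁻¹ * α g := fun g hg =>
    hd _ _ (QuotientGroup.out_eq' _)
  have hdC : ∀ a, d a ∈ C := fun a => (hA _).1 (by rw [QuotientGroup.out_eq']; exact a.2)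
  have hinj : Function.Injective d := by
    refine (injective_iff_map_eq_one d).2 fun a ha => Subtype.ext ?_
    obtain ⟨⟨g⟩, hg⟩ := a
    show (g : Q ⧸ C) = 1
    rw [QuotientGroup.eq_one_iff, h.fixed]
    exact (inv_mul_eq_one.1 ((hdg g hg).symm.trans ha)).symm
  have hdρ : ∀ (a : ↥A) (ha : ρ' (a : Q ⧸ C) ∈ A), d ⟨_, ha⟩ = ρ (d a) := by
    rintro ⟨v, hv⟩ ha
    obtain ⟨g, rfl⟩ := QuotientGroup.mk_surjective v
    rw [hdg g hv, map_mul, map_inv, ← h.comm, ← hdg (ρ g) (by rw [← mkr]; exact ha)]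
    congr 1
  have htwo' := h.two.to_quotient C
  have hα'α' : ∀ v, α' (α' v) = v := fun v => by
    obtain ⟨g, rfl⟩ := QuotientGroup.mk_surjective v
    rw [mka, mka, h.invol]
  haveI : Nontrivial (Q ⧸ C) := by
    obtain ⟨g, -, hg⟩ := SetLike.exists_of_lt (lt_top_iff_ne_top.2 hne)
    exact ⟨⟨g, 1, fun e => hg ((QuotientGroup.eq_one_iff g).1 e)⟩⟩
  obtain ⟨v, hv1, hv⟩ := CfsgLib.TwoFpf.exists_fixed_ne_one htwo' (t := α') hα'α'
  have hsurj : ∀ c ∈ C, ∃ a, d a = c := by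
    intro c hc
    refine h.le_of_inv (H := d.range) ?_ ⟨⟨v, hv⟩, rfl⟩ (hdC _)
      (fun e => hv1 (congrArg Subtype.val (hinj (e.trans (map_one d).symm)))) hc
    rintro _ ⟨a, rfl⟩
    exact ⟨⟨_, hρA _ a.2⟩, hdρ a _⟩
  refine ⟨α', ρ', A, d, ⟨htwo', h.two_le, hα'α', fun x => ?_, fun x => Iff.rfl, fun a ha => ?_, ?_,
    fun x hx y hy hx1 hy1 => ?_, fun x => ?_⟩, mka, mkr, hinj, hdC, hsurj, hdg, hdρ⟩
  · obtain ⟨g, rfl⟩ := QuotientGroup.mk_surjective x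
    rw [mkr, mka, mka, mkr, h.comm]
  · exact congrArg Subtype.val (hinj (a₁ := ⟨a, ha⟩ * ⟨a, ha⟩) (a₂ := 1)
      (by rw [map_mul, map_one, h.elem _ (hdC _)]))
  · rw [← h.card]
    exact Nat.card_eq_of_bijective (fun a => (⟨d a, hdC a⟩ : ↥C))
      ⟨fun a b e => hinj (congrArg Subtype.val e), fun c => by
        obtain ⟨a, ha⟩ := hsurj c c.2; exact ⟨a, Subtype.ext ha⟩⟩
  · obtain ⟨k, hk⟩ := h.trans (d ⟨x, hx⟩) (hdC _) (d ⟨y, hy⟩) (hdC _)
      (fun e => hx1 (congrArg Subtype.val (hinj (e.trans (map_one d).symm))))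
      (fun e => hy1 (congrArg Subtype.val (hinj (e.trans (map_one d).symm))))
    have key : ∀ k, ∃ hk : (ρ'^[k]) x ∈ A, d ⟨_, hk⟩ = (ρ^[k]) (d ⟨x, hx⟩) := by
      intro k
      induction k with
      | zero => exact ⟨hx, rfl⟩
      | succ k ih =>
        obtain ⟨hk, e⟩ := ih
        simp only [Function.iterate_succ_apply']
        exact ⟨hρA _ hk, by rw [hdρ ⟨_, hk⟩, e]⟩
    obtain ⟨hk', e⟩ := key k
    exact ⟨k, congrArg Subtype.val (hinj (e.trans hk))⟩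
  · obtain ⟨g, rfl⟩ := QuotientGroup.mk_surjective x
    have key : ∀ k, (ρ'^[k]) (g : Q ⧸ C) = (((ρ^[k]) g : Q) : Q ⧸ C) := by
      intro k
      induction k with
      | zero => rfl
      | succ k ih => rw [Function.iterate_succ_apply', Function.iterate_succ_apply', ih, mkr]
    rw [key, h.order]

end CfsgLib.Singer2
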